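import Cfsg.Agent.ExtraTwo.Space
import Cfsg.Agent.LargeExtra.Pair

/-!
An extraspecial group of type two with coordinates, inside the centraliser of its central
involution: the induced action and the conjugates of the central involution.
-/

set_option autoImplicit false

namespace Cfsg.Agent.ExtraTwo

open Cfsg Cfsg.Agent.LargeExtra Cfsg.Agent.TTClass.OrthF2

variable {G : Type*} [Group G]

theorem eq_mul_of_mem {a b : G} (ha : a * a = 1) : a * (a * b) = b := by
  rw [← mul_assoc, ha, one_mul]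

theorem conj_conj_inv (g a : G) : g⁻¹ * (g * a * g⁻¹) * g = a := by group

variable {ι : Type} [Fintype ι]

/-- Coordinates on `Q` modulo `⟨z⟩`, and the generation of the induced group. -/
structure Frame (z : G) (Q : Subgroup G) (q : (ι → ZMod 2) → ZMod 2)
    (B : (ι → ZMod 2) →ₗ[ZMod 2] (ι → ZMod 2) →ₗ[ZMod 2] ZMod 2) (φ : G → ι → ZMod 2) : Prop where
  ci : CentralInvolution Q z
  cent : Subgroup.centralizer (Q : Set G) ≤ Subgroup.zpowers z
  norm : Subgroup.centralizer ({z} : Set G) ≤ Subgroup.normalizer (Q : Set G)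
  two_le : 2 ≤ Fintype.card ι / 2
  even_card : 2 * (Fintype.card ι / 2) = Fintype.card ι
  cardQ : Nat.card Q = 2 ^ (Fintype.card ι + 1)
  qf : IsQF q B
  map_mul : ∀ a ∈ Q, ∀ b ∈ Q, φ (a * b) = φ a + φ b
  map_ker : ∀ a ∈ Q, φ a = 0 → a = 1 ∨ a = z
  map_surj : ∀ v, ∃ a ∈ Q, φ a = v
  map_sq : ∀ a ∈ Q, a * a = 1 ↔ q (φ a) = 0
  map_comm : ∀ a ∈ Q, ∀ b ∈ Q, a * b = b * a ↔ B (φ a) (φ b) = 0
  lift : ∀ u v, q u = 1 → q v = 1 → B u v = 1 →
    ∃ c, c * z = z * c ∧ ∀ a ∈ Q, φ (c * a * c⁻¹) = pairMap B u v (φ a)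

namespace Frame

variable {z : G} {Q : Subgroup G} {q : (ι → ZMod 2) → ZMod 2}
  {B : (ι → ZMod 2) →ₗ[ZMod 2] (ι → ZMod 2) →ₗ[ZMod 2] ZMod 2} {φ : G → ι → ZMod 2}
  (h : Frame z Q q B φ)
include h

theorem conj_memQ {c a : G} (hc : c * z = z * c) (ha : a ∈ Q) : c * a * c⁻¹ ∈ Q :=
  (Subgroup.mem_normalizer_iff.1 (h.norm (Subgroup.mem_centralizer_singleton_iff.2 hc)) a).1 ha

theorem map_one : φ 1 = 0 := by
  have e := h.map_mul 1 (one_mem _) 1 (one_mem _)
  rw [one_mul] at e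
  exact left_eq_add.mp e

theorem map_inv {a : G} (ha : a ∈ Q) : φ a⁻¹ = φ a := by
  have e := h.map_mul a⁻¹ (inv_mem ha) a ha
  rw [inv_mul_cancel, h.map_one] at e
  exact eq_of_add_eq_zero' e.symm

theorem map_z : φ z = 0 := by
  by_contra hne
  obtain ⟨v, hv⟩ : ∃ v, B (φ z) v ≠ 0 := by
    by_contra hcon
    push Not at hcon
    exact hne (h.qf.nd _ hcon)
  obtain ⟨b, hb, rfl⟩ := h.map_surj v
  exact hv ((h.map_comm z h.ci.mem b hb).1 (h.ci.comm b hb).symm)

theorem eq_or_of_map_eq {a b : G} (ha : a ∈ Q) (hb : b ∈ Q) (he : φ a = φ b) : a = b ∨ a = b * z := by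
  have : φ (b⁻¹ * a) = 0 := by rw [h.map_mul _ (inv_mem hb) _ ha, h.map_inv hb, he, add_self']
  rcases h.map_ker _ (mul_mem (inv_mem hb) ha) this with e | e
  · exact Or.inl (inv_mul_eq_one.1 e).symm
  · exact Or.inr (inv_mul_eq_iff_eq_mul.1 e)

theorem sq_eq_z {a : G} (ha : a ∈ Q) [Finite G] (hq : q (φ a) = 1) : a * a = z := by
  refine (h.ci.sq_mem ha).resolve_left fun e => ?_
  rw [(h.map_sq a ha).1 e] at hq
  exact zero_ne_one hq

theorem conj_eq_mul_z {a b : G} (ha : a ∈ Q) (hb : b ∈ Q) (hB : B (φ a) (φ b) = 1) :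
    a * b * a⁻¹ = b * z := by
  refine (h.ci.conj_cases ha hb).resolve_left fun e => ?_
  rw [(h.map_comm a ha b hb).1 (mul_inv_eq_iff_eq_mul.1 e)] at hB
  exact zero_ne_one hB

theorem conj_map_congr {c a b : G} (hc : c * z = z * c) (ha : a ∈ Q) (hb : b ∈ Q)
    (he : φ a = φ b) : φ (c * a * c⁻¹) = φ (c * b * c⁻¹) := by
  rcases h.eq_or_of_map_eq ha hb he with rfl | rfl
  · rfl
  · have e : c * (b * z) * c⁻¹ = c * b * c⁻¹ * z := by
      calc c * (b * z) * c⁻¹ = c * b * c⁻¹ * (c * z * c⁻¹) := by group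
        _ = c * b * c⁻¹ * z := by rw [hc, mul_inv_cancel_right]
    rw [e, h.map_mul _ (h.conj_memQ hc hb) _ h.ci.mem, h.map_z, add_zero]

/-- The induced map on the quotient by `⟨z⟩`. -/
noncomputable def act (c : G) (v : ι → ZMod 2) : ι → ZMod 2 :=
  φ (c * (h.map_surj v).choose * c⁻¹)

theorem act_map {c a : G} (hc : c * z = z * c) (ha : a ∈ Q) : h.act c (φ a) = φ (c * a * c⁻¹) :=
  h.conj_map_congr hc (h.map_surj (φ a)).choose_spec.1 ha (h.map_surj (φ a)).choose_spec.2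

theorem act_add {c : G} (hc : c * z = z * c) (x y : ι → ZMod 2) :
    h.act c (x + y) = h.act c x + h.act c y := by
  obtain ⟨a, ha, rfl⟩ := h.map_surj x
  obtain ⟨b, hb, rfl⟩ := h.map_surj y
  rw [← h.map_mul a ha b hb, h.act_map hc (mul_mem ha hb), h.act_map hc ha, h.act_map hc hb,
    ← h.map_mul _ (h.conj_memQ hc ha) _ (h.conj_memQ hc hb)]
  congr 1
  group

theorem act_smul {c : G} (hc : c * z = z * c) (k : ZMod 2) (x : ι → ZMod 2) :
    h.act c (k • x) = k • h.act c x := by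
  rcases z2 k with rfl | rfl
  · rw [zero_smul, zero_smul]
    have e := h.act_add hc 0 0
    rw [add_zero] at e
    exact left_eq_add.mp e
  · rw [one_smul, one_smul]

theorem act_mul {c d : G} (hc : c * z = z * c) (hd : d * z = z * d) (x : ι → ZMod 2) :
    h.act (c * d) x = h.act c (h.act d x) := by
  obtain ⟨a, ha, rfl⟩ := h.map_surj x
  have hcd : c * d * z = z * (c * d) := by rw [mul_assoc, hd, ← mul_assoc, hc, mul_assoc]
  rw [h.act_map hd ha, h.act_map hc (h.conj_memQ hd ha), h.act_map hcd ha]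
  congr 1
  group

theorem act_one (x : ι → ZMod 2) : h.act 1 x = x := by
  obtain ⟨a, ha, rfl⟩ := h.map_surj x
  rw [h.act_map (by simp) ha]
  simp

theorem act_of_mem {c : G} (hc : c ∈ Q) (x : ι → ZMod 2) : h.act c x = x := by
  obtain ⟨a, ha, rfl⟩ := h.map_surj x
  rw [h.act_map (h.ci.comm c hc) ha, h.map_mul _ (mul_mem hc ha) _ (inv_mem hc),
    h.map_mul _ hc _ ha, h.map_inv hc, add_comm (φ c), add_assoc, add_self', add_zero]

theorem act_q [Finite G] {c : G} (hc : c * z = z * c) (x : ι → ZMod 2) : q (h.act c x) = q x := by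
  obtain ⟨a, ha, rfl⟩ := h.map_surj x
  rw [h.act_map hc ha]
  have e1 := h.map_sq a ha
  have e2 := h.map_sq _ (h.conj_memQ hc ha)
  have e3 : c * a * c⁻¹ * (c * a * c⁻¹) = 1 ↔ a * a = 1 := by
    rw [show c * a * c⁻¹ * (c * a * c⁻¹) = c * (a * a) * c⁻¹ by group]
    exact conj_eq_one_iff
  rcases z2 (q (φ a)) with e | e <;> rcases z2 (q (φ (c * a * c⁻¹))) with e' | e' <;>
    simp_all

theorem act_B [Finite G] {c : G} (hc : c * z = z * c) (x y : ι → ZMod 2) :
    B (h.act c x) (h.act c y) = B x y := by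
  have e := h.qf.add x y
  rw [← h.act_q hc (x + y), h.act_add hc, h.qf.add, h.act_q hc, h.act_q hc] at e
  exact add_left_cancel e

/-- Trivial action means lying in `Q`. -/
theorem mem_of_act [Finite G] {c : G} (hc : c * z = z * c) (htriv : ∀ x, h.act c x = x) : c ∈ Q := by
  classical
  -- conjugation by `c` moves each `a` by a power of `z`, given by a functional
  have hlin : ∀ a ∈ Q, c * a * c⁻¹ = a ∨ c * a * c⁻¹ = a * z := fun a ha =>
    h.eq_or_of_map_eq (h.conj_memQ hc ha) ha (by rw [← h.act_map hc ha, htriv])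
  let δ : (ι → ZMod 2) → ZMod 2 := fun x =>
    if c * (h.map_surj x).choose * c⁻¹ = (h.map_surj x).choose then 0 else 1
  have hzc : z * c⁻¹ = c⁻¹ * z := by
    rw [eq_inv_mul_iff_mul_eq, ← mul_assoc, hc, mul_inv_cancel_right]
  have hδ : ∀ a ∈ Q, δ (φ a) = 0 ↔ c * a * c⁻¹ = a := by
    intro a ha
    have e := (h.map_surj (φ a)).choose_spec
    have hd : δ (φ a) = 0 ↔ c * (h.map_surj (φ a)).choose * c⁻¹ = (h.map_surj (φ a)).choose := by
      simp only [δ]
      by_cases hh : c * (h.map_surj (φ a)).choose * c⁻¹ = (h.map_surj (φ a)).choose <;> simp [hh]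
    rw [hd]
    rcases h.eq_or_of_map_eq e.1 ha e.2 with e' | e' <;> rw [e']
    rw [show c * (a * z) * c⁻¹ = c * a * (z * c⁻¹) by group, hzc, ← mul_assoc]
    exact ⟨fun e => mul_right_cancel e, fun e => by rw [e]⟩
  have hδ1 : ∀ a ∈ Q, δ (φ a) = 1 ↔ c * a * c⁻¹ = a * z := by
    intro a ha
    constructor
    · intro e
      refine (hlin a ha).resolve_left fun e' => ?_
      rw [(hδ a ha).2 e'] at e
      exact zero_ne_one e
    · intro e
      refine (z2 _).resolve_left fun e' => ?_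
      rw [(hδ a ha).1 e'] at e
      exact h.ci.ne_one (mul_eq_left.1 e.symm)
  have hadd : ∀ x y, δ (x + y) = δ x + δ y := by
    intro x y
    obtain ⟨a, ha, rfl⟩ := h.map_surj x
    obtain ⟨b, hb, rfl⟩ := h.map_surj y
    rw [← h.map_mul a ha b hb]
    have e : c * (a * b) * c⁻¹ = c * a * c⁻¹ * (c * b * c⁻¹) := by group
    have hzb : z * b = b * z := (h.ci.comm b hb).symm
    rcases z2 (δ (φ a)) with p | p <;> rcases z2 (δ (φ b)) with r | r <;> rw [p, r]
    · rw [add_zero, hδ _ (mul_mem ha hb), e, (hδ a ha).1 p, (hδ b hb).1 r]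
    · rw [zero_add, hδ1 _ (mul_mem ha hb), e, (hδ a ha).1 p, (hδ1 b hb).1 r, mul_assoc]
    · rw [add_zero, hδ1 _ (mul_mem ha hb), e, (hδ1 a ha).1 p, (hδ b hb).1 r, mul_assoc, hzb, mul_assoc]
    · rw [show (1 : ZMod 2) + 1 = 0 from rfl, hδ _ (mul_mem ha hb), e, (hδ1 a ha).1 p, (hδ1 b hb).1 r]
      calc a * z * (b * z) = a * (z * b) * z := by group
        _ = a * b * (z * z) := by rw [hzb]; group
        _ = a * b := by rw [h.ci.sq, mul_one]
  let L : (ι → ZMod 2) →ₗ[ZMod 2] ZMod 2 := AddMonoidHom.toZModLinearMap 2 (AddMonoidHom.mk' δ hadd)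
  have hBs : Function.Surjective B := by
    have hinj : Function.Injective B := by
      rw [injective_iff_map_eq_zero]
      exact fun v hv => h.qf.nd v fun w => by rw [hv]; rfl
    exact (LinearMap.injective_iff_surjective_of_finrank_eq_finrank
      (by rw [Subspace.dual_finrank_eq])).1 hinj
  obtain ⟨v, hv⟩ := hBs L
  obtain ⟨r, hr, rfl⟩ := h.map_surj v
  have hcr : r⁻¹ * c ∈ Subgroup.centralizer (Q : Set G) := by
    intro a ha
    have hk : B (φ r) (φ a) = δ (φ a) := by rw [hv]; rfl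
    have key : r * a * r⁻¹ = c * a * c⁻¹ := by
      rcases z2 (δ (φ a)) with e | e
      · rw [(hδ a ha).1 e, mul_inv_eq_iff_eq_mul]
        exact (h.map_comm r hr a ha).2 (hk.trans e)
      · rw [(hδ1 a ha).1 e, h.conj_eq_mul_z hr ha (hk.trans e)]
    calc a * (r⁻¹ * c) = r⁻¹ * (r * a * r⁻¹) * c := by group
      _ = r⁻¹ * c * a := by rw [key]; group
  have := h.cent hcr
  rcases h.ci.mem_zpowers_iff.1 this with e | e
  · exact (inv_mul_eq_one.1 e) ▸ hr
  · rw [inv_mul_eq_iff_eq_mul.1 e]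
    exact mul_mem hr h.ci.mem

/-- Orbits lift to the centraliser, fixing what is orthogonal to the vectors used. -/
theorem lift_orb {P : (ι → ZMod 2) → Prop} {a b : ι → ZMod 2} (ho : Orb q B P a b) :
    ∃ c, c * z = z * c ∧ h.act c a = b ∧ ∀ x, (∀ u, P u → B x u = 0) → h.act c x = x := by
  induction ho with
  | refl => exact ⟨1, by simp, h.act_one a, fun x _ => h.act_one x⟩
  | @tail b' c' _ hst ih =>
    obtain ⟨c, hc, hca, hcx⟩ := ih
    obtain ⟨u, v, hu, hv, qu, qv, huv, rfl⟩ := hst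
    obtain ⟨d, hd, hda⟩ := h.lift u v qu qv huv
    have hdact : ∀ x, h.act d x = pairMap B u v x := fun x => by
      obtain ⟨a', ha', rfl⟩ := h.map_surj x
      rw [h.act_map hd ha', hda a' ha']
    refine ⟨d * c, by rw [mul_assoc, hc, ← mul_assoc, hd, mul_assoc], ?_, fun x hx => ?_⟩
    · rw [h.act_mul hd hc, hca, hdact]
    · rw [h.act_mul hd hc, hcx x hx, hdact, pairMap, hx u hu, hx v hv]
      simp

/-- A conjugate of `z` in `Q` puts `z` in the conjugate of `Q`. -/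
theorem pair [Finite G] {g : G} (hg : g * z * g⁻¹ ∈ Q) (hne : g * z * g⁻¹ ≠ z) :
    z ∈ Q.map (MulAut.conj g).toMonoidHom :=
  mem_conj_of_conj_mem h.ci
    (le_antisymm h.cent (Subgroup.zpowers_le.2 fun x hx => h.ci.comm x hx)) h.norm
    h.two_le (by rw [h.cardQ, h.even_card]) hg hne

omit h in
theorem mem_map_conj {g x : G} : x ∈ Q.map (MulAut.conj g).toMonoidHom ↔ g⁻¹ * x * g ∈ Q := by
  constructor
  · rintro ⟨a, ha, rfl⟩
    simpa [mul_assoc] using ha
  · intro hx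
    exact ⟨_, hx, by simp [mul_assoc]⟩

/-- The symmetry of lying in the group of a conjugate of `z`. -/
theorem symm_mem [Finite G] {a b : G} (hab : a⁻¹ * (b * z * b⁻¹) * a ∈ Q)
    (hne : b * z * b⁻¹ ≠ a * z * a⁻¹) : b⁻¹ * (a * z * a⁻¹) * b ∈ Q := by
  have e1 : (a⁻¹ * b) * z * (a⁻¹ * b)⁻¹ = a⁻¹ * (b * z * b⁻¹) * a := by group
  have := h.pair (g := a⁻¹ * b) (e1 ▸ hab) (fun e => hne (by
    calc b * z * b⁻¹ = a * ((a⁻¹ * b) * z * (a⁻¹ * b)⁻¹) * a⁻¹ := by group
      _ = _ := by rw [e]))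
  rw [mem_map_conj] at this
  convert this using 1
  group

/-- The group of a conjugate of `z` only depends on the conjugate. -/
theorem conjQ_congr {a b x : G} (he : a * z * a⁻¹ = b * z * b⁻¹) (hx : a⁻¹ * x * a ∈ Q) :
    b⁻¹ * x * b ∈ Q := by
  have hc : (b⁻¹ * a) * z = z * (b⁻¹ * a) := by
    calc b⁻¹ * a * z = b⁻¹ * (a * z * a⁻¹) * a := by group
      _ = _ := by rw [he]; group
  have := h.conj_memQ hc hx
  convert this using 1
  group

end Frame

end Cfsg.Agent.ExtraTwo
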