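import Cfsg.Agent.ExtraTwo.Frame

/-!
The centraliser of `z` inside the group of a conjugate `s` of `z` lying in `Q` induces exactly the
maps `rho`, with compatible squares and commutators.
-/

set_option autoImplicit false

namespace Cfsg.Agent.ExtraTwo

open Cfsg Cfsg.Agent.LargeExtra Cfsg.Agent.TTClass.OrthF2

/-- The finite facts about the quadratic space. -/
structure Model {ι : Type} (q : (ι → ZMod 2) → ZMod 2)
    (B : (ι → ZMod 2) →ₗ[ZMod 2] (ι → ZMod 2) →ₗ[ZMod 2] ZMod 2) [Fintype ι]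
    (s0 f0 : ι → ZMod 2) : Prop where
  hp : Hyp2 q B s0 f0
  trans : ∀ a, q a = 0 → a ≠ 0 → Orb q B (fun _ => True) s0 a
  transD : ∀ w w', perp2 B s0 f0 w → perp2 B s0 f0 w' → w ≠ 0 → w' ≠ 0 → q w = q w' →
    Orb q B (perp2 B s0 f0) w w'
  neighbour : ∀ d, perp2 B s0 f0 d → d ≠ 0 → q d = 0 →
    ∃ d', perp2 B s0 f0 d' ∧ q d' = 0 ∧ B d d' = 1
  fixw : ∀ w, perp2 B s0 f0 w → w ≠ 0 → q w = 0 → ∀ x, perp2 B s0 f0 x →
    (∀ u v, perp2 B s0 f0 u → perp2 B s0 f0 v → B u w = 0 → B v w = 0 → q u = 1 → q v = 1 →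
      B u v = 1 → B x u = 0) → x = 0 ∨ x = w
  triple : ∃ a b c, perp2 B s0 f0 a ∧ perp2 B s0 f0 b ∧ perp2 B s0 f0 c ∧ q a = 0 ∧ q b = 0 ∧
    q c = 0 ∧ B a b = 1 ∧ B b c = 1 ∧ B a c = 1
  span : ∀ w, perp2 B s0 f0 w → ∃ a b, perp2 B s0 f0 a ∧ perp2 B s0 f0 b ∧ q a = 0 ∧ q b = 0 ∧
    w = a + b
  cardD : Nat.card {x // perp2 B s0 f0 x} * 4 = 2 ^ Fintype.card ι

variable {G : Type*} [Group G] {ι : Type} [Fintype ι]

/-- Elements of the group of `g z g⁻¹` centralising `z`. -/
def Rd (z : G) (Q : Subgroup G) (g u : G) : Prop := u * z = z * u ∧ g⁻¹ * u * g ∈ Q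

/-- The standing assumptions at a conjugate `g z g⁻¹` of `z` in `Q`. -/
structure At (z : G) (Q : Subgroup G) (q : (ι → ZMod 2) → ZMod 2)
    (B : (ι → ZMod 2) →ₗ[ZMod 2] (ι → ZMod 2) →ₗ[ZMod 2] ZMod 2) (φ : G → ι → ZMod 2)
    (s0 f0 : ι → ZMod 2) (g s : G) : Prop where
  fr : Frame z Q q B φ
  md : Model q B s0 f0
  eq : s = g * z * g⁻¹
  mem : s ∈ Q
  img : φ s = s0

namespace At

variable {z : G} {Q : Subgroup G} {q : (ι → ZMod 2) → ZMod 2}
  {B : (ι → ZMod 2) →ₗ[ZMod 2] (ι → ZMod 2) →ₗ[ZMod 2] ZMod 2} {φ : G → ι → ZMod 2}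
  {s0 f0 : ι → ZMod 2} {g s : G} (h : At z Q q B φ s0 f0 g s)
include h

theorem ne_z : s ≠ z := fun e => by
  have := h.img
  rw [e, h.fr.map_z] at this
  have hb := h.md.hp.bsf
  simp [← this] at hb

theorem sq_s : s * s = 1 := by
  rw [h.eq, show g * z * g⁻¹ * (g * z * g⁻¹) = g * (z * z) * g⁻¹ by group, h.fr.ci.sq]
  simp

theorem s_comm_z : s * z = z * s := h.fr.ci.comm s h.mem

theorem conjS_s : g⁻¹ * s * g = z := by rw [h.eq]; group

theorem s_ne_one : s ≠ 1 := fun e => h.fr.ci.ne_one (by rw [← h.conjS_s, e]; group)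

theorem comm_iff {c : G} : c * s = s * c ↔ (g⁻¹ * c * g) * z = z * (g⁻¹ * c * g) := by
  constructor <;> intro e
  · calc g⁻¹ * c * g * z = g⁻¹ * (c * s) * g := by rw [h.eq]; group
      _ = z * (g⁻¹ * c * g) := by rw [e, h.eq]; group
  · calc c * s = g * (g⁻¹ * c * g * z) * g⁻¹ := by rw [h.eq]; group
      _ = s * c := by rw [e, h.eq]; group

theorem comm_s {u : G} (hu : g⁻¹ * u * g ∈ Q) : u * s = s * u :=
  h.comm_iff.2 (h.fr.ci.comm _ hu)

theorem conj_memS {c u : G} (hc : c * s = s * c) (hu : g⁻¹ * u * g ∈ Q) :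
    g⁻¹ * (c * u * c⁻¹) * g ∈ Q := by
  have := h.fr.conj_memQ (h.comm_iff.1 hc) hu
  convert this using 1
  group

theorem sq_S [Finite G] {u : G} (hu : g⁻¹ * u * g ∈ Q) : u * u = 1 ∨ u * u = s := by
  have e : u * u = g * (g⁻¹ * u * g * (g⁻¹ * u * g)) * g⁻¹ := by group
  rcases h.fr.ci.sq_mem hu with k | k <;> rw [k] at e
  · exact Or.inl (by simpa using e)
  · exact Or.inr (by rw [e, h.eq])

theorem comm_S {u v : G} (hu : g⁻¹ * u * g ∈ Q) (hv : g⁻¹ * v * g ∈ Q) :
    u * v * u⁻¹ * v⁻¹ = 1 ∨ u * v * u⁻¹ * v⁻¹ = s := by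
  have e : u * v * u⁻¹ * v⁻¹ =
      g * (g⁻¹ * u * g * (g⁻¹ * v * g) * (g⁻¹ * u * g)⁻¹ * (g⁻¹ * v * g)⁻¹) * g⁻¹ := by group
  rcases h.fr.ci.comm_mem hu hv with k | k <;> rw [k] at e
  · exact Or.inl (by simpa using e)
  · exact Or.inr (by rw [e, h.eq])

theorem z_memS [Finite G] : g⁻¹ * z * g ∈ Q :=
  Frame.mem_map_conj.1 (h.fr.pair (h.eq ▸ h.mem) (h.eq ▸ h.ne_z))

theorem s_memS : g⁻¹ * s * g ∈ Q := by rw [h.conjS_s]; exact h.fr.ci.mem

theorem img_comm {a : G} (ha : a ∈ Q) : a * s = s * a ↔ B (φ a) s0 = 0 := by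
  rw [h.fr.map_comm a ha s h.mem, h.img]

theorem both_commute {x y : G} (hx : x ∈ Q) (hy : y ∈ Q) (hx' : g⁻¹ * x * g ∈ Q)
    (hy' : g⁻¹ * y * g ∈ Q) : x * y = y * x := by
  refine mul_inv_eq_iff_eq_mul.1 (mul_inv_eq_one.1 ?_)
  rcases h.fr.ci.comm_mem hx hy with e | e
  · exact e
  · rcases h.comm_S hx' hy' with e' | e'
    · exact e'
    · exact absurd (e'.symm.trans e) h.ne_z

theorem both_sq [Finite G] {x : G} (hx : x ∈ Q) (hx' : g⁻¹ * x * g ∈ Q) : x * x = 1 := by
  rcases h.fr.ci.sq_mem hx with e | e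
  · exact e
  · rcases h.sq_S hx' with e' | e'
    · exact e'
    · exact absurd (e'.symm.trans e) h.ne_z

/-- An element fixing the image of `s` differs by an element of `Q` from one fixing `s`. -/
theorem exists_fix {c : G} (hc : c * z = z * c) (hs : h.fr.act c s0 = s0) :
    ∃ c', c' * z = z * c' ∧ c' * s = s * c' ∧ ∀ x, h.fr.act c' x = h.fr.act c x := by
  have e : φ (c * s * c⁻¹) = φ s := by rw [← h.fr.act_map hc h.mem, h.img, hs]
  rcases h.fr.eq_or_of_map_eq (h.fr.conj_memQ hc h.mem) h.mem e with e' | e'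
  · exact ⟨c, hc, mul_inv_eq_iff_eq_mul.1 e', fun _ => rfl⟩
  · obtain ⟨y, hy, hys⟩ := h.fr.ci.exists_swap h.mem h.s_ne_one h.ne_z
    have hyz := h.fr.ci.comm y hy
    refine ⟨y * c, by rw [mul_assoc, hc, ← mul_assoc, hyz, mul_assoc], ?_, fun x => ?_⟩
    · refine mul_inv_eq_iff_eq_mul.1 ?_
      calc y * c * s * (y * c)⁻¹ = y * (c * s * c⁻¹) * y⁻¹ := by group
        _ = (y * s * y⁻¹) * (y * z * y⁻¹) := by rw [e']; group
        _ = s := by rw [hys, hyz, mul_inv_cancel_right, mul_assoc, h.fr.ci.sq, mul_one]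
    · rw [h.fr.act_mul hyz hc, h.fr.act_of_mem hy]

/-- An element fixing `s` from an orbit on the orthogonal of the pair. -/
theorem exists_move {a b : ι → ZMod 2} {P : (ι → ZMod 2) → Prop}
    (hP : ∀ u, P u → perp2 B s0 f0 u) (ho : Orb q B P a b) :
    ∃ c, c * z = z * c ∧ c * s = s * c ∧ h.fr.act c s0 = s0 ∧ h.fr.act c f0 = f0 ∧
      h.fr.act c a = b ∧ ∀ x, (∀ u, P u → B x u = 0) → h.fr.act c x = x := by
  obtain ⟨c, hc, hca, hcx⟩ := h.fr.lift_orb ho
  have hs : h.fr.act c s0 = s0 := hcx s0 fun u hu => by rw [h.md.hp.qf.symm]; exact (hP u hu).1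
  obtain ⟨c', hc', hcs, hact⟩ := h.exists_fix hc hs
  refine ⟨c', hc', hcs, by rw [hact, hs], ?_, by rw [hact, hca], fun x hx => by rw [hact, hcx x hx]⟩
  rw [hact]
  exact hcx f0 fun u hu => by rw [h.md.hp.qf.symm]; exact (hP u hu).2

/-- The intersection of `Q` with the group of `s`. -/
theorem inter [Finite G] {x : G} (hx : x ∈ Q) (hx' : g⁻¹ * x * g ∈ Q) :
    x = 1 ∨ x = z ∨ x = s ∨ x = s * z := by
  have hq0 : q (φ x) = 0 := (h.fr.map_sq x hx).1 (h.both_sq hx hx')
  have hBs : B (φ x) s0 = 0 := (h.img_comm hx).1 (h.comm_s hx')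
  obtain ⟨d, hd, hdec⟩ := h.md.hp.decomp (φ x)
  rw [hBs, zero_smul, add_zero] at hdec
  have hqd : q d = 0 := by rw [← hq0, hdec, h.md.hp.q_smul_s_add _ hd.1]
  by_cases hd0 : d = 0
  · rw [hd0, add_zero] at hdec
    rcases z2 (B (φ x) f0) with k | k <;> rw [k] at hdec
    · rw [zero_smul] at hdec
      rcases h.fr.map_ker x hx hdec with e | e
      · exact Or.inl e
      · exact Or.inr (Or.inl e)
    · rw [one_smul, ← h.img] at hdec
      rcases h.fr.eq_or_of_map_eq hx h.mem hdec with e | e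
      · exact Or.inr (Or.inr (Or.inl e))
      · exact Or.inr (Or.inr (Or.inr e))
  exfalso
  obtain ⟨x', hx1, hx2, hxd⟩ : ∃ x' ∈ Q, g⁻¹ * x' * g ∈ Q ∧ φ x' = d := by
    rcases z2 (B (φ x) f0) with k | k <;> rw [k] at hdec
    · exact ⟨x, hx, hx', by rw [hdec, zero_smul, zero_add]⟩
    · refine ⟨s * x, mul_mem h.mem hx, ?_, ?_⟩
      · rw [show g⁻¹ * (s * x) * g = (g⁻¹ * s * g) * (g⁻¹ * x * g) by group]
        exact mul_mem h.s_memS hx'
      · rw [h.fr.map_mul _ h.mem _ hx, h.img, hdec, one_smul, add_left_self]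
  obtain ⟨d', hd', hqd', hB⟩ := h.md.neighbour d hd hd0 hqd
  have hd'0 : d' ≠ 0 := fun e => by rw [e, map_zero] at hB; exact zero_ne_one hB
  obtain ⟨c, hc, hcs, -, -, hcd, -⟩ :=
    h.exists_move (fun u hu => hu) (h.md.transD d d' hd hd' hd0 hd'0 (by rw [hqd, hqd']))
  have := h.both_commute hx1 (h.fr.conj_memQ hc hx1) hx2 (h.conj_memS hcs hx2)
  rw [h.fr.map_comm _ hx1 _ (h.fr.conj_memQ hc hx1), ← h.fr.act_map hc hx1, hxd, hcd, hB] at this
  exact one_ne_zero this

theorem inter_img [Finite G] {x : G} (hx : x ∈ Q) (hx' : g⁻¹ * x * g ∈ Q) :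
    φ x = 0 ∨ φ x = s0 := by
  rcases h.inter hx hx' with rfl | rfl | rfl | rfl
  · exact Or.inl h.fr.map_one
  · exact Or.inl h.fr.map_z
  · exact Or.inr h.img
  · exact Or.inr (by rw [h.fr.map_mul _ h.mem _ h.fr.ci.mem, h.img, h.fr.map_z, add_zero])

omit h in
/-- Being in `⟨z, s⟩`. -/
def IsX (z s x : G) : Prop := x = 1 ∨ x = z ∨ x = s ∨ x = s * z

theorem X_comm {k : G} (hk : IsX z s k) {v : G} (hvz : v * z = z * v) (hvs : v * s = s * v) :
    v * k = k * v := by
  rcases hk with rfl | rfl | rfl | rfl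
  · simp
  · exact hvz
  · exact hvs
  · rw [← mul_assoc, hvs, mul_assoc, hvz, mul_assoc]

theorem X_sq {k : G} (hk : IsX z s k) : k * k = 1 := by
  rcases hk with rfl | rfl | rfl | rfl
  · simp
  · exact h.fr.ci.sq
  · exact h.sq_s
  · rw [show s * z * (s * z) = s * (z * s) * z by group, ← h.s_comm_z, ← mul_assoc, h.sq_s,
      one_mul, h.fr.ci.sq]

theorem X_memS [Finite G] {k : G} (hk : IsX z s k) : g⁻¹ * k * g ∈ Q := by
  rcases hk with rfl | rfl | rfl | rfl
  · simp
  · exact h.z_memS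
  · exact h.s_memS
  · rw [show g⁻¹ * (s * z) * g = (g⁻¹ * s * g) * (g⁻¹ * z * g) by group]
    exact mul_mem h.s_memS h.z_memS

theorem rd_mul {u u' : G} (hu : Rd z Q g u) (hu' : Rd z Q g u') : Rd z Q g (u * u') := by
  refine ⟨by rw [mul_assoc, hu'.1, ← mul_assoc, hu.1, mul_assoc], ?_⟩
  rw [show g⁻¹ * (u * u') * g = (g⁻¹ * u * g) * (g⁻¹ * u' * g) by group]
  exact mul_mem hu.2 hu'.2

theorem rd_inv {u : G} (hu : Rd z Q g u) : Rd z Q g u⁻¹ := by
  refine ⟨(Commute.inv_left hu.1).eq, ?_⟩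
  rw [show g⁻¹ * u⁻¹ * g = (g⁻¹ * u * g)⁻¹ by group]
  exact inv_mem hu.2

theorem exists_omega [Finite G] {u : G} (hu : Rd z Q g u) :
    ∃ w, perp2 B s0 f0 w ∧ ∀ x, h.fr.act u x = rho q B s0 w x := by
  have hs : h.fr.act u s0 = s0 := by
    have e := h.fr.act_map hu.1 h.mem
    rwa [h.comm_s hu.2, mul_inv_cancel_right, h.img] at e
  refine h.md.hp.exists_rho (h.fr.act_add hu.1) (fun x => h.fr.act_q hu.1 x) hs fun x hx => ?_
  obtain ⟨a, ha, rfl⟩ := h.fr.map_surj x
  have hm : g⁻¹ * (u * a * u⁻¹ * a⁻¹) * g ∈ Q := by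
    rw [show g⁻¹ * (u * a * u⁻¹ * a⁻¹) * g = (g⁻¹ * u * g) * (g⁻¹ * (a * u⁻¹ * a⁻¹) * g) by group]
    exact mul_mem hu.2 (h.conj_memS ((h.img_comm ha).2 hx) (h.rd_inv hu).2)
  have hm' : u * a * u⁻¹ * a⁻¹ ∈ Q := mul_mem (h.fr.conj_memQ hu.1 ha) (inv_mem ha)
  have e := h.inter_img hm' hm
  rw [h.fr.map_mul _ (h.fr.conj_memQ hu.1 ha) _ (inv_mem ha), h.fr.map_inv ha,
    ← h.fr.act_map hu.1 ha] at e
  rcases e with e | e
  · exact Or.inl (eq_of_add_eq_zero' e)
  · refine Or.inr ?_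
    have e' : h.fr.act u (φ a) = h.fr.act u (φ a) + φ a + φ a := by
      rw [add_assoc, add_self', add_zero]
    rw [e', e, add_comm]

/-- `u` induces `rho` at `w`. -/
def HasW (u : G) (w : ι → ZMod 2) : Prop :=
  Rd z Q g u ∧ perp2 B s0 f0 w ∧ ∀ x, h.fr.act u x = rho q B s0 w x

theorem hasW_mul {u u' : G} {w w' : ι → ZMod 2} (hu : h.HasW u w) (hu' : h.HasW u' w') :
    h.HasW (u * u') (w + w') :=
  ⟨h.rd_mul hu.1 hu'.1, h.md.hp.perp2_add hu.2.1 hu'.2.1, fun x => by
    rw [h.fr.act_mul hu.1.1 hu'.1.1, hu.2.2, hu'.2.2, h.md.hp.rho_mul hu.2.1 hu'.2.1]⟩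

theorem hasW_unique {u : G} {w w' : ι → ZMod 2} (hu : h.HasW u w) (hu' : h.HasW u w') : w = w' :=
  h.md.hp.rho_inj hu.2.1 hu'.2.1 ((hu.2.2 f0).symm.trans (hu'.2.2 f0))

theorem hasW_zero [Finite G] {u : G} (hu : h.HasW u 0) : IsX z s u :=
  h.inter (h.fr.mem_of_act hu.1.1 fun x => by rw [hu.2.2, h.md.hp.rho_zero]) hu.1.2

theorem hasW_congr [Finite G] {u u' : G} {w : ι → ZMod 2} (hu : h.HasW u w) (hu' : h.HasW u' w) :
    ∃ k, IsX z s k ∧ u' = u * k := by
  have hinv : h.HasW u⁻¹ w := by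
    obtain ⟨w1, h1, h2⟩ := h.exists_omega (h.rd_inv hu.1)
    have hh : h.HasW u⁻¹ w1 := ⟨h.rd_inv hu.1, h1, h2⟩
    have e := h.hasW_mul hu hh
    rw [mul_inv_cancel] at e
    have e0 : h.HasW (1 : G) 0 := ⟨⟨by simp, by simp⟩, h.md.hp.perp2_zero, fun x => by
      rw [h.fr.act_one, h.md.hp.rho_zero]⟩
    rw [eq_of_add_eq_zero' (h.hasW_unique e e0)]
    exact hh
  have e := h.hasW_mul hinv hu'
  rw [add_self'] at e
  exact ⟨u⁻¹ * u', h.hasW_zero e, (mul_inv_cancel_left u u').symm⟩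

theorem hasW_mul_X [Finite G] {u k : G} {w : ι → ZMod 2} (hu : h.HasW u w) (hk : IsX z s k) :
    h.HasW (u * k) w := by
  have hkQ : k ∈ Q := by
    rcases hk with rfl | rfl | rfl | rfl
    · exact one_mem _
    · exact h.fr.ci.mem
    · exact h.mem
    · exact mul_mem h.mem h.fr.ci.mem
  refine ⟨h.rd_mul hu.1 ⟨h.fr.ci.comm k hkQ, h.X_memS hk⟩, hu.2.1, fun x => ?_⟩
  rw [h.fr.act_mul hu.1.1 (h.fr.ci.comm k hkQ), h.fr.act_of_mem hkQ, hu.2.2]

theorem hasW_conj [Finite G] {c u : G} {w : ι → ZMod 2} (hc : c * z = z * c) (hcs : c * s = s * c)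
    (hc0 : h.fr.act c s0 = s0) (hcw : perp2 B s0 f0 (h.fr.act c w)) (hu : h.HasW u w) :
    h.HasW (c * u * c⁻¹) (h.fr.act c w) := by
  have hci : c⁻¹ * z = z * c⁻¹ := (Commute.inv_left hc).eq
  have hz' : c * u * c⁻¹ * z = z * (c * u * c⁻¹) := by
    calc c * u * c⁻¹ * z = c * (u * z) * c⁻¹ := by rw [mul_assoc _ c⁻¹, hci]; group
      _ = c * z * u * c⁻¹ := by rw [hu.1.1]; group
      _ = z * (c * u * c⁻¹) := by rw [hc]; group
  refine ⟨⟨hz', h.conj_memS hcs hu.1.2⟩, hcw, fun x => ?_⟩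
  obtain ⟨y, rfl⟩ : ∃ y, h.fr.act c y = x := ⟨h.fr.act c⁻¹ x, by
    rw [← h.fr.act_mul hc hci, mul_inv_cancel, h.fr.act_one]⟩
  rw [← h.fr.act_mul hz' hc, inv_mul_cancel_right, h.fr.act_mul hc hu.1.1, hu.2.2]
  exact h.md.hp.rho_conj (h.fr.act_add hc) (fun x => h.fr.act_q hc x) hc0 w y

/-- Every `rho` is induced. -/
theorem exists_lift [Finite G] {w : ι → ZMod 2} (hw : perp2 B s0 f0 w) : ∃ u, h.HasW u w := by
  classical
  haveI : Fact (Nat.Prime 2) := ⟨Nat.prime_two⟩
  set T := Q.map (MulAut.conj g).toMonoidHom with hT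
  let S : Subgroup G := Subgroup.centralizer ({z} : Set G) ⊓ T
  have hS : ∀ u : S, Rd z Q g u := fun u =>
    ⟨Subgroup.mem_centralizer_singleton_iff.1 u.2.1, Frame.mem_map_conj.1 u.2.2⟩
  let f : S →* Multiplicative (ι → ZMod 2) :=
    MonoidHom.mk' (fun u => Multiplicative.ofAdd (h.exists_omega (hS u)).choose) fun a b => by
      rw [← ofAdd_add]
      refine congrArg _ (h.hasW_unique (u := (a : G) * b)
        ⟨hS (a * b), (h.exists_omega (hS (a * b))).choose_spec⟩
        (h.hasW_mul ⟨hS a, (h.exists_omega (hS a)).choose_spec⟩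
          ⟨hS b, (h.exists_omega (hS b)).choose_spec⟩))
  have hker : Nat.card f.ker ≤ 4 := by
    let i : f.ker → ({1, z, s, s * z} : Finset G) := fun u => ⟨((u : S) : G), by
      have e : (h.exists_omega (hS u)).choose = 0 := congrArg Multiplicative.toAdd u.2
      have := h.hasW_zero (u := ((u : S) : G)) ⟨hS u, e ▸ (h.exists_omega (hS u)).choose_spec⟩
      simpa [IsX] using this⟩
    refine le_trans (Nat.card_le_card_of_injective i fun a b e =>
      Subtype.ext (Subtype.ext (Subtype.ext_iff.1 e :))) ?_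
    rw [Nat.card_eq_fintype_card, Fintype.card_coe]
    exact Finset.card_le_four
  have hcardS : Nat.card S = 2 ^ Fintype.card ι := by
    let z' := g⁻¹ * z * g
    have hz'Q : z' ∈ Q := h.z_memS
    have hne : (⟨z', hz'Q⟩ : Q) ∉ Subgroup.center Q := by
      intro hc
      rcases h.fr.ci.eq_of_mem hc with e | e
      · exact h.fr.ci.ne_one (by
          calc z = g * z' * g⁻¹ := by simp [z', mul_assoc]
            _ = 1 := by rw [show z' = 1 from e]; group)
      · exact h.ne_z (by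
          calc s = g * z' * g⁻¹ := by rw [show z' = z from e, h.eq]
            _ = z := by simp [z', mul_assoc])
    have hidx := Cfsg.Agent.PGroup.extraspecial_index_centralizer h.fr.ci.extra hne
    have hc := Subgroup.card_mul_index (Subgroup.centralizer ({(⟨z', hz'Q⟩ : Q)} : Set Q))
    rw [hidx, h.fr.cardQ, pow_succ] at hc
    rw [← Nat.eq_of_mul_eq_mul_right two_pos hc]
    refine Nat.card_congr
      { toFun := fun u => ⟨⟨g⁻¹ * u * g, (hS u).2⟩, Subgroup.mem_centralizer_singleton_iff.2 ?_⟩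
        invFun := fun a => ⟨g * (a : Q) * g⁻¹, Subgroup.mem_centralizer_singleton_iff.2 ?_,
          Frame.mem_map_conj.2 (by simp [mul_assoc])⟩
        left_inv := fun u => Subtype.ext (by simp [mul_assoc])
        right_inv := fun a => Subtype.ext (Subtype.ext (by simp [mul_assoc])) }
    · refine Subtype.ext ?_
      show g⁻¹ * u * g * z' = z' * (g⁻¹ * u * g)
      calc g⁻¹ * u * g * z' = g⁻¹ * ((u : G) * z) * g := by simp [z', mul_assoc]
        _ = _ := by rw [(hS u).1]; simp [z', mul_assoc]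
    · have e : ((a : Q) : G) * z' = z' * (a : Q) :=
        congrArg Subtype.val (Subgroup.mem_centralizer_singleton_iff.1 a.2)
      calc g * (a : Q) * g⁻¹ * z = g * ((a : Q) * z') * g⁻¹ := by simp [z', mul_assoc]
        _ = _ := by rw [e]; simp [z', mul_assoc]
  have hprod := Subgroup.card_mul_index f.ker
  rw [Subgroup.index_ker, hcardS, ← h.md.cardD] at hprod
  let D : Set (Multiplicative (ι → ZMod 2)) := {x | perp2 B s0 f0 x.toAdd}
  have hsub : (f.range : Set (Multiplicative (ι → ZMod 2))) ⊆ D := by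
    rintro _ ⟨u, rfl⟩
    exact (h.exists_omega (hS u)).choose_spec.1
  have hge : Nat.card D ≤ Nat.card f.range := by
    have hD : Nat.card D = Nat.card {x // perp2 B s0 f0 x} :=
      Nat.card_congr (Equiv.subtypeEquiv Multiplicative.toAdd fun _ => Iff.rfl)
    rw [← hD] at hprod
    nlinarith [Nat.mul_le_mul_right (Nat.card f.range) hker]
  have heq : (f.range : Set (Multiplicative (ι → ZMod 2))) = D :=
    Set.eq_of_subset_of_ncard_le hsub
      (by rw [← Nat.card_coe_set_eq, ← Nat.card_coe_set_eq]; exact hge) (Set.toFinite _)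
  obtain ⟨u, hu⟩ : Multiplicative.ofAdd w ∈ f.range := by
    have : Multiplicative.ofAdd w ∈ D := hw
    rwa [← heq] at this
  have e : (h.exists_omega (hS u)).choose = w := congrArg Multiplicative.toAdd hu
  exact ⟨u, hS u, e ▸ (h.exists_omega (hS u)).choose_spec⟩

/-- Squares follow the quadratic form. -/
theorem sq_iff [Finite G] {u : G} {w : ι → ZMod 2} (hu : h.HasW u w) :
    u * u = 1 ↔ q w = 0 := by
  haveI : Fact (Nat.Prime 2) := ⟨Nat.prime_two⟩
  -- the square is constant on a coset and on each orbit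
  have coset : ∀ {u u' : G} {w : ι → ZMod 2}, h.HasW u w → h.HasW u' w → u' * u' = u * u := by
    intro u u' w hu hu'
    obtain ⟨k, hk, rfl⟩ := h.hasW_congr hu hu'
    have hcm := h.X_comm hk hu.1.1 (h.comm_s hu.1.2)
    calc u * k * (u * k) = u * (k * u) * k := by group
      _ = u * u * (k * k) := by rw [← hcm]; group
      _ = u * u := by rw [h.X_sq hk, mul_one]
  have orbit : ∀ {u u' : G} {w w' : ι → ZMod 2}, h.HasW u w → h.HasW u' w' → w ≠ 0 → w' ≠ 0 →
      q w = q w' → (u * u = 1 ↔ u' * u' = 1) := by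
    intro u u' w w' hu hu' h0 h0' he
    obtain ⟨c, hc, hcs, hc0, -, hcw, -⟩ :=
      h.exists_move (fun u hu => hu) (h.md.transD w w' hu.2.1 hu'.2.1 h0 h0' he)
    have := h.hasW_conj hc hcs hc0 (hcw ▸ hu'.2.1) hu
    rw [hcw] at this
    rw [coset this hu', show c * u * c⁻¹ * (c * u * c⁻¹) = c * (u * u) * c⁻¹ by group]
    exact conj_eq_one_iff.symm
  by_cases hw0 : w = 0
  · subst hw0
    exact iff_of_true (h.X_sq (h.hasW_zero hu)) h.md.hp.qf.zero
  obtain ⟨a, b, c, ha, hb, hc, qa, qb, qc, ab, bc, ac⟩ := h.md.triple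
  obtain ⟨ua, hua⟩ := h.exists_lift ha
  obtain ⟨ub, hub⟩ := h.exists_lift hb
  obtain ⟨uc, huc⟩ := h.exists_lift hc
  have ne0 : ∀ {a b : ι → ZMod 2}, B a b = 1 → a ≠ 0 ∧ b ≠ 0 := fun {a b} e =>
    ⟨fun e' => by simp [e'] at e, fun e' => by simp [e'] at e⟩
  have qsum : ∀ {a b : ι → ZMod 2}, q a = 0 → q b = 0 → B a b = 1 → q (a + b) = 1 :=
    fun {a b} e1 e2 e3 => by rw [h.md.hp.qf.add, e1, e2, e3]; rfl
  have nz : ∀ {a : ι → ZMod 2}, q a = 1 → a ≠ 0 := fun e e' => by
    rw [e', h.md.hp.qf.zero] at e; exact zero_ne_one e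
  have qabc : q (a + b + c) = 1 := by
    rw [h.md.hp.qf.add, qsum qa qb ab, qc, map_add, LinearMap.add_apply, ac, bc]; rfl
  -- the products
  have hab := h.hasW_mul hua hub
  have habc := h.hasW_mul hab huc
  have scases : ∀ {u : G} {w : ι → ZMod 2}, h.HasW u w → ¬ u * u = 1 → u * u = s :=
    fun hu e => (h.sq_S hu.1.2).resolve_left e
  have cm : ∀ {u v : G}, Rd z Q g u → Rd z Q g v →
      u * v = v * u ∨ v * u = u * v * s := by
    intro u v hu hv
    rcases h.comm_S hv.2 hu.2 with e | e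
    · exact Or.inl (mul_inv_eq_iff_eq_mul.1 (mul_inv_eq_one.1 e)).symm
    · refine Or.inr ?_
      have e' := mul_inv_eq_iff_eq_mul.1 (mul_inv_eq_iff_eq_mul.1 e)
      calc v * u = s * u * v := e'
        _ = u * v * s := by
          rw [← h.comm_s hu.2, mul_assoc, ← h.comm_s hv.2, mul_assoc]
  have sqmul : ∀ {u v : G}, Rd z Q g u → Rd z Q g v →
      (u * v * (u * v) = u * u * (v * v) ∧ u * v = v * u) ∨
        u * v * (u * v) = u * u * (v * v) * s := by
    intro u v hu hv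
    rcases cm hu hv with e | e
    · refine Or.inl ⟨?_, e⟩
      calc u * v * (u * v) = u * (v * u) * v := by group
        _ = _ := by rw [← e]; group
    · refine Or.inr ?_
      calc u * v * (u * v) = u * (v * u) * v := by group
        _ = u * (u * v * s) * v := by rw [e]
        _ = u * u * v * (s * v) := by group
        _ = _ := by rw [← h.comm_s hv.2]; group
  have comm_bc := sqmul hub.1 huc.1
  have comm_ac := sqmul hua.1 huc.1
  have comm_ab := sqmul hua.1 hub.1
  have hsing : ua * ua = 1 := by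
    by_contra hna
    have sa := scases hua hna
    have sb := scases hub fun e => hna ((orbit hua hub (ne0 ab).1 (ne0 ab).2 (by rw [qa, qb])).2 e)
    have sc := scases huc fun e => hna ((orbit hua huc (ne0 ac).1 (ne0 ac).2 (by rw [qa, qc])).2 e)
    have hbc' := h.hasW_mul hub huc
    have hac' := h.hasW_mul hua huc
    have o1 := orbit hab hbc' (nz (qsum qa qb ab)) (nz (qsum qb qc bc))
      (by rw [qsum qa qb ab, qsum qb qc bc])
    have o2 := orbit hab hac' (nz (qsum qa qb ab)) (nz (qsum qa qc ac))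
      (by rw [qsum qa qb ab, qsum qa qc ac])
    have o3 := orbit hab habc (nz (qsum qa qb ab)) (nz qabc) (by rw [qsum qa qb ab, qabc])
    have ss : s * s = 1 := h.sq_s
    by_cases hn : ua * ub * (ua * ub) = 1
    · -- all commute, so the triple product squares to `s`
      have e1 := (comm_bc.resolve_right fun e => by
        rw [o1.1 hn, sb, sc, ss, one_mul] at e; exact h.s_ne_one e.symm).2
      have e2 := (comm_ac.resolve_right fun e => by
        rw [o2.1 hn, sa, sc, ss, one_mul] at e; exact h.s_ne_one e.symm).2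
      have e3 : ua * ub * uc = uc * (ua * ub) := by
        rw [mul_assoc, e1, ← mul_assoc, e2, mul_assoc]
      have hh := o3.1 hn
      rw [show ua * ub * uc * (ua * ub * uc) = ua * ub * (uc * (ua * ub)) * uc by group, ← e3,
        show ua * ub * (ua * ub * uc) * uc = ua * ub * (ua * ub) * (uc * uc) by group, hn, sc,
        one_mul] at hh
      exact h.s_ne_one hh
    · -- none commute, so the first two products commute with the third
      have c1 : uc * ub = ub * uc * s := (cm hub.1 huc.1).resolve_left fun e => hn (o1.2 (by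
        rw [show ub * uc * (ub * uc) = ub * (uc * ub) * uc by group, ← e,
          show ub * (ub * uc) * uc = ub * ub * (uc * uc) by group, sb, sc, ss]))
      have c2 : uc * ua = ua * uc * s := (cm hua.1 huc.1).resolve_left fun e => hn (o2.2 (by
        rw [show ua * uc * (ua * uc) = ua * (uc * ua) * uc by group, ← e,
          show ua * (ua * uc) * uc = ua * ua * (uc * uc) by group, sa, sc, ss]))
      have e3 : uc * (ua * ub) = ua * ub * uc := by
        calc uc * (ua * ub) = ua * uc * (s * ub) := by rw [← mul_assoc, c2]; group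
          _ = ua * (uc * ub) * s := by rw [← h.comm_s hub.1.2]; group
          _ = ua * ub * uc * (s * s) := by rw [c1]; group
          _ = _ := by rw [ss, mul_one]
      refine hn (o3.2 ?_)
      rw [show ua * ub * uc * (ua * ub * uc) = ua * ub * (uc * (ua * ub)) * uc by group, e3,
        show ua * ub * (ua * ub * uc) * uc = ua * ub * (ua * ub) * (uc * uc) by group,
        scases hab hn, sc, ss]
  constructor
  · intro hu1
    by_contra hne
    have hw1 := (z2 (q w)).resolve_left hne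
    have hall : ∀ u w, h.HasW u w → u * u = 1 := by
      intro u' w' hu'
      by_cases h0 : w' = 0
      · subst h0; exact h.X_sq (h.hasW_zero hu')
      rcases z2 (q w') with e | e
      · exact (orbit hu' hua h0 (ne0 ab).1 (by rw [e, qa])).2 hsing
      · exact (orbit hu' hu h0 hw0 (by rw [e, hw1])).2 hu1
    let S : Subgroup G := Subgroup.centralizer ({z} : Set G) ⊓ Q.map (MulAut.conj g).toMonoidHom
    have hS : ∀ u ∈ S, Rd z Q g u ∧ u * u = 1 := fun u hu => by
      have hr : Rd z Q g u :=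
        ⟨Subgroup.mem_centralizer_singleton_iff.1 hu.1, Frame.mem_map_conj.1 hu.2⟩
      obtain ⟨w', h1, h2⟩ := h.exists_omega hr
      exact ⟨hr, hall u w' ⟨hr, h1, h2⟩⟩
    have hcomm : ∀ u ∈ S, ∀ v ∈ S, u * v = v * u := fun u hu v hv => by
      have e1 := inv_eq_of_mul_eq_one_right (hS u hu).2
      have e2 := inv_eq_of_mul_eq_one_right (hS v hv).2
      have e3 := inv_eq_of_mul_eq_one_right (hS _ (mul_mem hu hv)).2
      rwa [_root_.mul_inv_rev, e1, e2, eq_comm] at e3
    let A : Subgroup Q := (S.map (MulAut.conj g⁻¹).toMonoidHom).subgroupOf Q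
    have hA : IsMulCommutative A := ⟨⟨fun a b => by
      obtain ⟨x, hx, ex⟩ := a.2
      obtain ⟨y, hy, ey⟩ := b.2
      refine Subtype.ext (Subtype.ext ?_)
      show ((a : Q) : G) * (b : Q) = (b : Q) * (a : Q)
      rw [← show g⁻¹ * x * g = ((a : Q) : G) by simpa [mul_assoc] using ex,
        ← show g⁻¹ * y * g = ((b : Q) : G) by simpa [mul_assoc] using ey]
      calc g⁻¹ * x * g * (g⁻¹ * y * g) = g⁻¹ * (x * y) * g := by group
        _ = _ := by rw [hcomm x hx y hy]; group⟩⟩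
    have hle : S.map (MulAut.conj g⁻¹).toMonoidHom ≤ Q := by
      rintro _ ⟨x, hx, rfl⟩
      simpa [mul_assoc] using (hS x hx).1.2
    have h1 := Cfsg.Agent.PGroup.extraspecial_card_abelian_le h.fr.ci.extra
      (n := Fintype.card ι / 2) (by rw [h.fr.cardQ, h.fr.even_card]) hA
    rw [Nat.card_congr (Subgroup.subgroupOfEquivOfLe hle).toEquiv,
      Subgroup.card_map_of_injective (MulAut.conj g⁻¹).injective] at h1
    have h2 : Nat.card {x // perp2 B s0 f0 x} ≤ Nat.card S := by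
      refine Nat.card_le_card_of_injective
        (fun x => (⟨(h.exists_lift x.2).choose,
          Subgroup.mem_centralizer_singleton_iff.2 (h.exists_lift x.2).choose_spec.1.1,
          Frame.mem_map_conj.2 (h.exists_lift x.2).choose_spec.1.2⟩ : S)) fun x y e => ?_
      have e' : (h.exists_lift x.2).choose = (h.exists_lift y.2).choose := congrArg Subtype.val e
      exact Subtype.ext (h.hasW_unique (e' ▸ (h.exists_lift x.2).choose_spec)
        (h.exists_lift y.2).choose_spec)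
    have h3 : 4 * Nat.card {x // perp2 B s0 f0 x} ≤ Nat.card S := by
      let F : ({x // perp2 B s0 f0 x}) × Fin 4 → S := fun p =>
        ⟨(h.exists_lift p.1.2).choose * ![1, z, s, s * z] p.2, by
          have hh := h.hasW_mul_X (h.exists_lift p.1.2).choose_spec
            (k := ![1, z, s, s * z] p.2) (by rcases p with ⟨x, i⟩; fin_cases i <;> simp [IsX])
          exact ⟨Subgroup.mem_centralizer_singleton_iff.2 hh.1.1, Frame.mem_map_conj.2 hh.1.2⟩⟩
      have hF : Function.Injective F := by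
        rintro ⟨x, i⟩ ⟨y, j⟩ e
        have e' : (h.exists_lift x.2).choose * ![1, z, s, s * z] i =
            (h.exists_lift y.2).choose * ![1, z, s, s * z] j := congrArg Subtype.val e
        have hx := h.hasW_mul_X (h.exists_lift x.2).choose_spec (k := ![1, z, s, s * z] i)
          (by fin_cases i <;> simp [IsX])
        have hy := h.hasW_mul_X (h.exists_lift y.2).choose_spec (k := ![1, z, s, s * z] j)
          (by fin_cases j <;> simp [IsX])
        obtain rfl : x = y := Subtype.ext (h.hasW_unique (e' ▸ hx) hy)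
        have e'' := mul_left_cancel e'
        have k1 : z ≠ 1 := h.fr.ci.ne_one
        have k2 : s ≠ 1 := h.s_ne_one
        have k3 : s ≠ z := h.ne_z
        have k4 : s * z ≠ 1 := fun e => h.ne_z (by
          rw [eq_inv_of_mul_eq_one_left e, h.fr.ci.inv_eq])
        have k5 : s * z ≠ z := fun e => k2 (mul_eq_right.1 e)
        have k6 : s * z ≠ s := fun e => k1 (mul_eq_left.1 e)
        refine Prod.ext rfl ?_
        fin_cases i <;> fin_cases j <;> first
          | rfl
          | exact absurd e''.symm k1 | exact absurd e'' k1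
          | exact absurd e''.symm k2 | exact absurd e'' k2
          | exact absurd e''.symm k3 | exact absurd e'' k3
          | exact absurd e''.symm k4 | exact absurd e'' k4
          | exact absurd e''.symm k5 | exact absurd e'' k5
          | exact absurd e''.symm k6 | exact absurd e'' k6
      have := Nat.card_le_card_of_injective F hF
      rw [Nat.card_prod, Nat.card_fin] at this
      omega
    have h4 : 2 ^ Fintype.card ι ≤ 2 ^ (Fintype.card ι / 2 + 1) := by
      rw [← h.md.cardD, mul_comm]; exact le_trans h3 h1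
    have h5 := Nat.pow_le_pow_iff_right (one_lt_two) |>.1 h4
    have h6 := h.fr.two_le
    have h7 := h.fr.even_card
    omega
  · intro hq
    exact (orbit hu hua hw0 (ne0 ab).1 (by rw [hq, qa])).2 hsing

end At

end Cfsg.Agent.ExtraTwo
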