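import Cfsg.Agent.ExtraTwo.Siegel

/-!
The commutator of an element of `Q` centralising `s` with an element of the group of `s`
centralising `z` is the power of `z s` given by the polar form.
-/

set_option autoImplicit false

namespace Cfsg.Agent.ExtraTwo

open Cfsg Cfsg.Agent.LargeExtra Cfsg.Agent.TTClass.OrthF2

variable {G : Type*} [Group G] {ι : Type} [Fintype ι]

/-- The commutator lies in `⟨s⟩`. -/
def Cz (s v u : G) : Prop := v * u * v⁻¹ * u⁻¹ = 1 ∨ v * u * v⁻¹ * u⁻¹ = s

open Classical in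
/-- The `z`-part of the commutator. -/
noncomputable def zc (s v u : G) : ZMod 2 := if Cz s v u then 0 else 1

namespace At

variable {z : G} {Q : Subgroup G} {q : (ι → ZMod 2) → ZMod 2}
  {B : (ι → ZMod 2) →ₗ[ZMod 2] (ι → ZMod 2) →ₗ[ZMod 2] ZMod 2} {φ : G → ι → ZMod 2}
  {s0 f0 : ι → ZMod 2} {g s : G} (h : At z Q q B φ s0 f0 g s)
include h

/-- An element inducing the identity on the group of `s` modulo `⟨s⟩` lies in it. -/
theorem memS_of_trivial [Finite G] {v : G} (hvs : v * s = s * v)
    (htriv : ∀ b, g⁻¹ * b * g ∈ Q → v * b * v⁻¹ * b⁻¹ = 1 ∨ v * b * v⁻¹ * b⁻¹ = s) :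
    g⁻¹ * v * g ∈ Q := by
  refine h.fr.mem_of_act (h.comm_iff.1 hvs) fun x => ?_
  obtain ⟨a, ha, rfl⟩ := h.fr.map_surj x
  rw [h.fr.act_map (h.comm_iff.1 hvs) ha]
  have hb : g⁻¹ * (g * a * g⁻¹) * g ∈ Q := by rw [conj_conj_inv]; exact ha
  have e : g⁻¹ * v * g * a * (g⁻¹ * v * g)⁻¹ =
      g⁻¹ * (v * (g * a * g⁻¹) * v⁻¹ * (g * a * g⁻¹)⁻¹) * g * a := by group
  rw [e]
  rcases htriv _ hb with k | k <;> rw [k]
  · simp
  · rw [h.conjS_s, h.fr.map_mul _ h.fr.ci.mem _ ha, h.fr.map_z, zero_add]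

theorem comm_mem_both [Finite G] {v u : G} (hv : v ∈ Q) (hvs : v * s = s * v) (hu : Rd z Q g u) :
    IsX z s (v * u * v⁻¹ * u⁻¹) := by
  refine h.inter ?_ ?_
  · rw [show v * u * v⁻¹ * u⁻¹ = v * (u * v⁻¹ * u⁻¹) by group]
    exact mul_mem hv (h.fr.conj_memQ hu.1 (inv_mem hv))
  · rw [show g⁻¹ * (v * u * v⁻¹ * u⁻¹) * g = (g⁻¹ * (v * u * v⁻¹) * g) * (g⁻¹ * u * g)⁻¹ by group]
    exact mul_mem (h.conj_memS hvs hu.2) (inv_mem hu.2)

theorem comm_img [Finite G] {v u : G} {w : ι → ZMod 2} (hv : v ∈ Q) (hvs : v * s = s * v)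
    (hu : h.HasW u w) : φ (v * u * v⁻¹ * u⁻¹) = B (φ v) w • s0 := by
  rw [show v * u * v⁻¹ * u⁻¹ = v * (u * v⁻¹ * u⁻¹) by group,
    h.fr.map_mul _ hv _ (h.fr.conj_memQ hu.1.1 (inv_mem hv)), ← h.fr.act_map hu.1.1 (inv_mem hv),
    h.fr.map_inv hv, hu.2.2, h.md.hp.rho_of_perp w ((h.img_comm hv).1 hvs), add_left_self]

theorem cz_cases [Finite G] {v u : G} (hv : v ∈ Q) (hvs : v * s = s * v) (hu : Rd z Q g u) :
    Cz s v u ∨ (¬ Cz s v u ∧ (v * u * v⁻¹ * u⁻¹ = z ∨ v * u * v⁻¹ * u⁻¹ = s * z)) := by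
  rcases h.comm_mem_both hv hvs hu with e | e | e | e
  · exact Or.inl (Or.inl e)
  · refine Or.inr ⟨?_, Or.inl e⟩
    rintro (k | k)
    · exact h.fr.ci.ne_one (e.symm.trans k)
    · exact h.ne_z (k.symm.trans e)
  · exact Or.inl (Or.inr e)
  · refine Or.inr ⟨?_, Or.inr e⟩
    rintro (k | k)
    · have := e.symm.trans k
      exact h.ne_z (by rw [eq_inv_of_mul_eq_one_left this, h.fr.ci.inv_eq])
    · exact h.fr.ci.ne_one (mul_eq_left.1 (e.symm.trans k))

theorem zc_eq_zero {v u : G} : zc s v u = 0 ↔ Cz s v u := by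
  unfold zc
  split_ifs with hh <;> simp [hh]

theorem zc_add [Finite G] {v u : G} (hv : v ∈ Q) (hvs : v * s = s * v) {v' : G} (hv' : v' ∈ Q)
    (hvs' : v' * s = s * v') (hu : Rd z Q g u) : zc s (v * v') u = zc s v u + zc s v' u := by
  have hvz := h.fr.ci.comm v hv
  have hk := h.comm_mem_both hv' hvs' hu
  have e : v * v' * u * (v * v')⁻¹ * u⁻¹ =
      (v' * u * v'⁻¹ * u⁻¹) * (v * u * v⁻¹ * u⁻¹) := by
    have := h.X_comm hk hvz hvs
    calc v * v' * u * (v * v')⁻¹ * u⁻¹ = v * (v' * u * v'⁻¹ * u⁻¹) * v⁻¹ * (v * u * v⁻¹ * u⁻¹) := by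
          group
      _ = _ := by rw [this, mul_inv_cancel_right]
  have hvv : v * v' * s = s * (v * v') := by rw [mul_assoc, hvs', ← mul_assoc, hvs, mul_assoc]
  have hs2 := h.sq_s
  have hz2 := h.fr.ci.sq
  have hsz := h.s_comm_z
  have hsz2 : ∀ x : G, s * (s * x) = x := fun x => eq_mul_of_mem hs2
  have hzz2 : ∀ x : G, z * (z * x) = x := fun x => eq_mul_of_mem hz2
  have hcz : Cz s (v * v') u ↔ (Cz s v u ↔ Cz s v' u) := by
    rcases h.cz_cases hv hvs hu with a | ⟨na, a⟩ <;> rcases h.cz_cases hv' hvs' hu with b | ⟨nb, b⟩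
    · refine iff_of_true ?_ (iff_of_true a b)
      unfold Cz at a b ⊢
      rw [e]
      rcases a with a | a <;> rcases b with b | b <;> simp [a, b, hs2]
    · refine iff_of_false (fun hc => nb ?_) (fun hc => nb (hc.1 a))
      unfold Cz at a hc ⊢
      rw [e] at hc
      rcases a with a | a <;> rw [a] at hc
      · simpa using hc
      · rcases hc with c | c
        · exact Or.inr ((eq_inv_of_mul_eq_one_left c).trans (inv_eq_of_mul_eq_one_right hs2))
        · exact Or.inl (mul_eq_right.1 c)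
    · refine iff_of_false (fun hc => na ?_) (fun hc => na (hc.2 b))
      unfold Cz at b hc ⊢
      rw [e] at hc
      rcases b with b | b <;> rw [b] at hc
      · simpa using hc
      · rcases hc with c | c
        · exact Or.inr ((eq_inv_of_mul_eq_one_right c).trans (inv_eq_of_mul_eq_one_right hs2))
        · exact Or.inl (mul_eq_left.1 c)
    · refine iff_of_true ?_ (iff_of_false na nb)
      unfold Cz
      rw [e]
      rcases a with a | a <;> rcases b with b | b <;> rw [a, b]
      · exact Or.inl hz2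
      · exact Or.inr (by rw [mul_assoc, hz2, mul_one])
      · exact Or.inr (by rw [← mul_assoc, ← hsz, mul_assoc, hz2, mul_one])
      · exact Or.inl (by rw [mul_assoc, ← mul_assoc z s z, ← hsz, mul_assoc s z z, hz2, mul_one, hs2])
  unfold zc
  by_cases a : Cz s v u <;> by_cases b : Cz s v' u <;> simp [a, b, hcz] <;> rfl

theorem zc_right [Finite G] {v u u' : G} (hv : v ∈ Q) (hvs : v * s = s * v)
    (hu : Rd z Q g u) (hu' : Rd z Q g u') : zc s v (u * u') = zc s v u + zc s v u' := by
  have hk := h.comm_mem_both hv hvs hu'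
  have e : v * (u * u') * v⁻¹ * (u * u')⁻¹ =
      (v * u * v⁻¹ * u⁻¹) * (v * u' * v⁻¹ * u'⁻¹) := by
    have := h.X_comm hk hu.1 (h.comm_s hu.2)
    calc v * (u * u') * v⁻¹ * (u * u')⁻¹
        = (v * u * v⁻¹ * u⁻¹) * (u * (v * u' * v⁻¹ * u'⁻¹) * u⁻¹) := by group
      _ = _ := by rw [this, mul_inv_cancel_right]
  have hs2 := h.sq_s
  have hz2 := h.fr.ci.sq
  have hsz := h.s_comm_z
  have hcz : Cz s v (u * u') ↔ (Cz s v u ↔ Cz s v u') := by
    rcases h.cz_cases hv hvs hu with a | ⟨na, a⟩ <;> rcases h.cz_cases hv hvs hu' with b | ⟨nb, b⟩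
    · refine iff_of_true ?_ (iff_of_true a b)
      unfold Cz at a b ⊢
      rw [e]
      rcases a with a | a <;> rcases b with b | b <;> simp [a, b, hs2]
    · refine iff_of_false (fun hc => nb ?_) (fun hc => nb (hc.1 a))
      unfold Cz at a hc ⊢
      rw [e] at hc
      rcases a with a | a <;> rw [a] at hc
      · simpa using hc
      · rcases hc with c | c
        · exact Or.inr ((eq_inv_of_mul_eq_one_right c).trans (inv_eq_of_mul_eq_one_right hs2))
        · exact Or.inl (mul_eq_left.1 c)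
    · refine iff_of_false (fun hc => na ?_) (fun hc => na (hc.2 b))
      unfold Cz at b hc ⊢
      rw [e] at hc
      rcases b with b | b <;> rw [b] at hc
      · simpa using hc
      · rcases hc with c | c
        · exact Or.inr ((eq_inv_of_mul_eq_one_left c).trans (inv_eq_of_mul_eq_one_right hs2))
        · exact Or.inl (mul_eq_right.1 c)
    · refine iff_of_true ?_ (iff_of_false na nb)
      unfold Cz
      rw [e]
      rcases a with a | a <;> rcases b with b | b <;> rw [a, b]
      · exact Or.inl hz2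
      · exact Or.inr (by rw [← mul_assoc, ← hsz, mul_assoc, hz2, mul_one])
      · exact Or.inr (by rw [mul_assoc, hz2, mul_one])
      · exact Or.inl (by rw [mul_assoc, ← mul_assoc z s z, ← hsz, mul_assoc s z z, hz2, mul_one, hs2])
  unfold zc
  by_cases a : Cz s v u <;> by_cases b : Cz s v u' <;> simp [a, b, hcz] <;> rfl

theorem zc_X [Finite G] {k u : G} (hk : IsX z s k) (hu : Rd z Q g u) : zc s k u = 0 := by
  refine h.zc_eq_zero.2 (Or.inl ?_)
  rw [← h.X_comm hk hu.1 (h.comm_s hu.2), mul_inv_cancel_right, mul_inv_cancel]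

theorem zc_X_right [Finite G] {v k : G} (hk : IsX z s k) (hv : v ∈ Q) (hvs : v * s = s * v) :
    zc s v k = 0 := by
  refine h.zc_eq_zero.2 (Or.inl ?_)
  rw [h.X_comm hk (h.fr.ci.comm v hv) hvs, mul_inv_cancel_right, mul_inv_cancel]

/-- The two elements with the same image differ in `⟨z, s⟩`. -/
theorem zc_congr [Finite G] {v v' u : G} (hv : v ∈ Q) (hvs : v * s = s * v) (hv' : v' ∈ Q)
    (hd : φ v = φ v' ∨ φ v = φ v' + s0) (hu : Rd z Q g u) : zc s v' u = zc s v u := by
  have hX : IsX z s (v⁻¹ * v') := by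
    rcases hd with e | e
    · have e0 : φ (v⁻¹ * v') = 0 := by
        rw [h.fr.map_mul _ (inv_mem hv) _ hv', h.fr.map_inv hv, e, add_self']
      rcases h.fr.map_ker _ (mul_mem (inv_mem hv) hv') e0 with k | k
      · exact Or.inl k
      · exact Or.inr (Or.inl k)
    · have e0 : φ (v⁻¹ * v') = φ s := by
        rw [h.fr.map_mul _ (inv_mem hv) _ hv', h.fr.map_inv hv, e, h.img, add_comm _ s0, add_assoc,
          add_self', add_zero]
      rcases h.fr.eq_or_of_map_eq (mul_mem (inv_mem hv) hv') h.mem e0 with k | k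
      · exact Or.inr (Or.inr (Or.inl k))
      · exact Or.inr (Or.inr (Or.inr k))
  have hQ : v⁻¹ * v' ∈ Q := mul_mem (inv_mem hv) hv'
  have := h.zc_add hv hvs hQ (h.comm_s (h.X_memS hX)) hu
  rw [mul_inv_cancel_left, h.zc_X hX hu, add_zero] at this
  exact this

/-- The linear functional on the quotient attached to `u`. -/
theorem exists_vec [Finite G] {u : G} (hu : Rd z Q g u) :
    ∃ x, perp2 B s0 f0 x ∧ ∀ v ∈ Q, v * s = s * v → zc s v u = B x (φ v) := by
  let pr : (ι → ZMod 2) →ₗ[ZMod 2] (ι → ZMod 2) := AddMonoidHom.toZModLinearMap 2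
    (AddMonoidHom.mk' (fun x => x + B x f0 • s0 + B x s0 • f0) fun a b => by
      simp only [map_add, LinearMap.add_apply, add_smul]; abel)
  have hpr : ∀ x, pr x = x + B x f0 • s0 + B x s0 • f0 := fun _ => rfl
  have hperp : ∀ x, perp2 B s0 f0 (pr x) := by
    intro x
    rw [hpr]
    constructor <;> simp [h.md.hp.qf.self, h.md.hp.bfs, h.md.hp.bsf] <;>
      exact CharTwo.add_self_eq_zero _
  have hrep : ∀ x, (h.fr.map_surj (pr x)).choose ∈ Q ∧
      (h.fr.map_surj (pr x)).choose * s = s * (h.fr.map_surj (pr x)).choose ∧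
      φ (h.fr.map_surj (pr x)).choose = pr x := by
    intro x
    have e := (h.fr.map_surj (pr x)).choose_spec
    exact ⟨e.1, (h.img_comm e.1).2 (by rw [e.2]; exact (hperp x).1), e.2⟩
  let F : (ι → ZMod 2) →ₗ[ZMod 2] ZMod 2 := AddMonoidHom.toZModLinearMap 2
    (AddMonoidHom.mk' (fun x => zc s (h.fr.map_surj (pr x)).choose u) fun a b => by
      obtain ⟨a1, a2, a3⟩ := hrep a
      obtain ⟨b1, b2, b3⟩ := hrep b
      obtain ⟨c1, c2, c3⟩ := hrep (a + b)
      rw [← h.zc_add a1 a2 b1 b2 hu]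
      refine h.zc_congr (mul_mem a1 b1) (by rw [mul_assoc, b2, ← mul_assoc, a2, mul_assoc]) c1
        (Or.inl ?_) hu
      rw [h.fr.map_mul _ a1 _ b1, a3, b3, c3, map_add])
  have hBs : Function.Surjective B := by
    have hinj : Function.Injective B := by
      rw [injective_iff_map_eq_zero]
      exact fun v hv => h.md.hp.qf.nd v fun w => by rw [hv]; rfl
    exact (LinearMap.injective_iff_surjective_of_finrank_eq_finrank
      (by rw [Subspace.dual_finrank_eq])).1 hinj
  obtain ⟨x, hx⟩ := hBs F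
  have hFz : ∀ y, pr y = 0 → B x y = 0 := by
    intro y hy
    obtain ⟨a1, a2, a3⟩ := hrep y
    rw [hx]
    show zc s (h.fr.map_surj (pr y)).choose u = 0
    refine h.zc_X (h.inter a1 ?_) hu
    rcases h.fr.map_ker _ a1 (a3.trans hy) with e | e <;> rw [e]
    · simp
    · exact h.z_memS
  refine ⟨x, ⟨hFz s0 ?_, hFz f0 ?_⟩, fun v hv hvs => ?_⟩
  · rw [hpr, h.md.hp.qf.self, h.md.hp.bsf, one_smul, zero_smul, add_zero, add_self']
  · rw [hpr, h.md.hp.qf.self, h.md.hp.bfs, one_smul, zero_smul, add_zero, add_self']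
  · rw [hx]
    show zc s v u = zc s (h.fr.map_surj (pr (φ v))).choose u
    obtain ⟨a1, a2, a3⟩ := hrep (φ v)
    refine (h.zc_congr hv hvs a1 ?_ hu).symm
    rw [a3, hpr, (h.img_comm hv).1 hvs, zero_smul, add_zero]
    rcases z2 (B (φ v) f0) with e | e <;> rw [e]
    · simp
    · refine Or.inr ?_
      rw [one_smul, add_assoc, add_self', add_zero]

theorem act_eq_of_pairMap_fixed {u v x : ι → ZMod 2} (huv : B u v = 1)
    (he : pairMap B u v x = x) : B x u = 0 := by
  rw [pairMap, add_assoc] at he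
  have he := add_eq_left.mp he
  have h1 := congrArg (fun t => B t u) he
  have h2 := congrArg (fun t => B t v) he
  simp [h.md.hp.qf.self, h.md.hp.qf.symm v u, huv] at h1 h2
  simpa [h1] using h2

/-- The vector attached to a singular element is its `rho`-vector. -/
theorem vec_eq [Finite G] {u : G} {w : ι → ZMod 2} (hu : h.HasW u w) :
    ∀ v ∈ Q, v * s = s * v → zc s v u = B (φ v) w := by
  -- invariance under the stabiliser
  have inv : ∀ {u : G} {w x : ι → ZMod 2}, h.HasW u w → perp2 B s0 f0 x →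
      (∀ v ∈ Q, v * s = s * v → zc s v u = B x (φ v)) → ∀ {u' : G} {w' : ι → ZMod 2}, h.HasW u' w' →
      ∀ {c : G}, c * z = z * c → c * s = s * c → h.fr.act c s0 = s0 → h.fr.act c w = w' →
      ∀ v ∈ Q, v * s = s * v → zc s v u' = B (h.fr.act c x) (φ v) := by
    intro u w x hu _ hx u' w' hu' c hc hcs hc0 hcw v hv hvs
    have hci : c⁻¹ * z = z * c⁻¹ := (Commute.inv_left hc).eq
    have hcsi : c⁻¹ * s = s * c⁻¹ := (Commute.inv_left hcs).eq
    have hu'' := h.hasW_conj hc hcs hc0 (hcw ▸ hu'.2.1) hu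
    rw [hcw] at hu''
    obtain ⟨k, hk, rfl⟩ := h.hasW_congr hu'' hu'
    have hv' := h.fr.conj_memQ hci hv
    rw [inv_inv] at hv'
    have hvs' : c⁻¹ * v * c * s = s * (c⁻¹ * v * c) := by
      calc c⁻¹ * v * c * s = c⁻¹ * v * (s * c) := by rw [mul_assoc _ c s, hcs]
        _ = c⁻¹ * (s * v) * c := by rw [← hvs]; group
        _ = _ := by rw [← mul_assoc c⁻¹ s v, hcsi]; group
    rw [h.zc_right hv hvs hu''.1 ⟨(h.fr.ci.comm _ ?_), h.X_memS hk⟩, h.zc_X_right hk hv hvs, add_zero]
    · have e : v * (c * u * c⁻¹) * v⁻¹ * (c * u * c⁻¹)⁻¹ =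
          c * (c⁻¹ * v * c * u * (c⁻¹ * v * c)⁻¹ * u⁻¹) * c⁻¹ := by group
      have hiff : Cz s v (c * u * c⁻¹) ↔ Cz s (c⁻¹ * v * c) u := by
        unfold Cz
        rw [e, conj_eq_one_iff, mul_inv_eq_iff_eq_mul (a := c * _), ← hcs, mul_right_inj]
      have : zc s v (c * u * c⁻¹) = zc s (c⁻¹ * v * c) u := by
        rcases z2 (zc s (c⁻¹ * v * c) u) with k | k <;> rw [k]
        · exact h.zc_eq_zero.2 (hiff.2 (h.zc_eq_zero.1 k))
        · refine (z2 _).resolve_left fun k' => ?_
          rw [h.zc_eq_zero.2 (hiff.1 (h.zc_eq_zero.1 k'))] at k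
          exact zero_ne_one k
      rw [this, hx _ hv' hvs', ← h.fr.act_B hc x (φ (c⁻¹ * v * c)), h.fr.act_map hc hv']
      congr 1
      group
    · rcases hk with rfl | rfl | rfl | rfl
      · exact one_mem _
      · exact h.fr.ci.mem
      · exact h.mem
      · exact mul_mem h.mem h.fr.ci.mem
  -- testing against everything determines the vector
  have determ : ∀ {x y : ι → ZMod 2}, perp2 B s0 f0 x → perp2 B s0 f0 y →
      (∀ v ∈ Q, v * s = s * v → B x (φ v) = B y (φ v)) → x = y := by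
    intro x y hx hy hh
    refine eq_of_add_eq_zero' (h.md.hp.qf.nd _ fun t => ?_)
    obtain ⟨d, hd, ht⟩ := h.md.hp.decomp t
    obtain ⟨a, ha, rfl⟩ := h.fr.map_surj d
    have := hh a ha ((h.img_comm ha).2 hd.1)
    rw [ht]
    simp [hx.1, hx.2, hy.1, hy.2, this, CharTwo.add_self_eq_zero]
  obtain ⟨x, hxp, hx⟩ := h.exists_vec hu.1
  -- for singular vectors
  have sing : ∀ {u : G} {w x : ι → ZMod 2}, h.HasW u w → w ≠ 0 → q w = 0 → perp2 B s0 f0 x →
      (∀ v ∈ Q, v * s = s * v → zc s v u = B x (φ v)) → x = 0 ∨ x = w := by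
    intro u w x hu hw0 hqw hxp hx
    refine h.md.fixw w hu.2.1 hw0 hqw x hxp fun a b ha hb haw hbw qa qb hab => ?_
    let P : (ι → ZMod 2) → Prop := fun t => t = a ∨ t = b
    have ho : Orb q B P x (pairMap B a b x) :=
      Relation.ReflTransGen.single ⟨a, b, Or.inl rfl, Or.inr rfl, qa, qb, hab, rfl⟩
    obtain ⟨c, hc, hcs, hc0, hcf, hcx, hfix⟩ :=
      h.exists_move (P := P) (by rintro t (rfl | rfl) <;> assumption) ho
    have hcw : h.fr.act c w = w := hfix w (by
      rintro t (rfl | rfl) <;> rw [h.md.hp.qf.symm] <;> assumption)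
    have hyp : perp2 B s0 f0 (h.fr.act c x) := by
      constructor
      · have e := h.fr.act_B hc x s0
        rw [hc0] at e
        exact e.trans hxp.1
      · have e := h.fr.act_B hc x f0
        rw [hcf] at e
        exact e.trans hxp.2
    have e := inv hu hxp hx hu hc hcs hc0 hcw
    have := determ hyp hxp fun v hv hvs => (e v hv hvs).symm.trans (hx v hv hvs)
    rw [hcx] at this
    exact h.act_eq_of_pairMap_fixed hab this
  -- some element has a non-zero vector
  have nontriv : ∀ {u : G} {w x : ι → ZMod 2}, h.HasW u w → w ≠ 0 → q w = 0 → perp2 B s0 f0 x →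
      (∀ v ∈ Q, v * s = s * v → zc s v u = B x (φ v)) → x = w := by
    intro u w x hu hw0 hqw hxp hx
    refine (sing hu hw0 hqw hxp hx).resolve_left fun hx0 => ?_
    subst hx0
    -- then all elements have vector zero
    have hsing : ∀ {u : G} {w : ι → ZMod 2}, h.HasW u w → q w = 0 →
        ∀ v ∈ Q, v * s = s * v → zc s v u = 0 := by
      intro u' w' hu' hq' v hv hvs
      by_cases h0 : w' = 0
      · subst h0; exact h.zc_X_right (h.hasW_zero hu') hv hvs
      obtain ⟨c, hc, hcs, hc0, -, hcw, -⟩ := h.exists_move (fun t ht => ht)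
        (h.md.transD w w' hu.2.1 hu'.2.1 hw0 h0 (by rw [hqw, hq']))
      have e0 := h.fr.act_smul hc 0 0
      rw [zero_smul, zero_smul] at e0
      rw [inv hu hxp hx hu' hc hcs hc0 hcw v hv hvs, e0]
      simp
    have hall : ∀ {u : G}, Rd z Q g u → ∀ v ∈ Q, v * s = s * v → zc s v u = 0 := by
      intro u' hu' v hv hvs
      obtain ⟨w', hw', hact⟩ := h.exists_omega hu'
      obtain ⟨a, b, ha, hb, qa, qb, rfl⟩ := h.md.span w' hw'
      obtain ⟨ua, hua⟩ := h.exists_lift ha
      obtain ⟨ub, hub⟩ := h.exists_lift hb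
      obtain ⟨k, hk, rfl⟩ := h.hasW_congr (h.hasW_mul hua hub) (u' := u') ⟨hu', hw', hact⟩
      rw [h.zc_right hv hvs (h.rd_mul hua.1 hub.1) ?_, h.zc_X_right hk hv hvs, add_zero,
        h.zc_right hv hvs hua.1 hub.1, hsing hua qa v hv hvs, hsing hub qb v hv hvs, add_zero]
      rcases hk with rfl | rfl | rfl | rfl
      · exact ⟨by simp, by simp⟩
      · exact ⟨rfl, h.z_memS⟩
      · exact ⟨h.s_comm_z, h.s_memS⟩
      · exact ⟨h.fr.ci.comm _ (mul_mem h.mem h.fr.ci.mem), h.X_memS (Or.inr (Or.inr (Or.inr rfl)))⟩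
    obtain ⟨v, hv, hvw⟩ := h.fr.map_surj w
    have hvs : v * s = s * v := (h.img_comm hv).2 (by rw [hvw]; exact hu.2.1.1)
    have hvz := h.fr.ci.comm v hv
    refine hw0 ?_
    have hm : g⁻¹ * v * g ∈ Q := by
      refine h.memS_of_trivial hvs fun b hb => ?_
      -- the commutator centralises the centraliser of `z` in the group of `s`
      set c := v * b * v⁻¹ * b⁻¹ with hc
      have hcS : g⁻¹ * c * g ∈ Q := by
        rw [hc, show g⁻¹ * (v * b * v⁻¹ * b⁻¹) * g = (g⁻¹ * (v * b * v⁻¹) * g) * (g⁻¹ * b * g)⁻¹ by group]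
        exact mul_mem (h.conj_memS hvs hb) (inv_mem hb)
      have hcomm : ∀ t, Rd z Q g t → t * c = c * t := by
        intro t ht
        have hti : g⁻¹ * (v⁻¹ * t * v) * g ∈ Q := by
          have := h.conj_memS (c := v⁻¹) (Commute.inv_left hvs).eq ht.2
          rwa [inv_inv] at this
        have hkt := h.comm_mem_both (inv_mem hv) (Commute.inv_left hvs).eq ht
        rw [inv_inv] at hkt
        have hcs' : v⁻¹ * t * v * t⁻¹ = 1 ∨ v⁻¹ * t * v * t⁻¹ = s := by
          have := h.zc_eq_zero.1 (hall ht v⁻¹ (inv_mem hv) (Commute.inv_left hvs).eq)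
          unfold Cz at this
          rwa [inv_inv] at this
        -- write `v⁻¹ t v = t k` with `k` central in the group of `s`
        obtain ⟨k, hkc, hk1, hk⟩ : ∃ k, (∀ y, g⁻¹ * y * g ∈ Q → y * k = k * y) ∧
            v * k * v⁻¹ = k ∧ v⁻¹ * t * v = k * t := by
          rcases hcs' with e | e
          · exact ⟨1, fun y _ => by simp, by simp, by rw [one_mul]; exact mul_inv_eq_one.1 e⟩
          · exact ⟨s, fun y hy => h.comm_s hy, mul_inv_eq_iff_eq_mul.2 hvs,
              mul_inv_eq_iff_eq_mul.1 e⟩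
        rcases h.comm_S ht.2 hb with e | e
        · have tb : t * b = b * t := mul_inv_eq_iff_eq_mul.1 (mul_inv_eq_one.1 e)
          have t1 : (v⁻¹ * t * v) * b = b * (v⁻¹ * t * v) := by
            rw [hk, mul_assoc, tb, ← mul_assoc, ← hkc b hb, mul_assoc]
          have t2 : t * (v * b * v⁻¹) = v * b * v⁻¹ * t := by
            calc t * (v * b * v⁻¹) = v * ((v⁻¹ * t * v) * b) * v⁻¹ := by group
              _ = _ := by rw [t1]; group
          rw [hc]
          exact (Commute.mul_right t2 (Commute.inv_right tb)).eq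
        · have tb : t * b = s * b * t := mul_inv_eq_iff_eq_mul.1 (mul_inv_eq_iff_eq_mul.1 e)
          have t1 : (v⁻¹ * t * v) * b = s * b * (v⁻¹ * t * v) := by
            have hks : s * k = k * s := hkc s h.s_memS
            rw [hk, mul_assoc, tb]
            calc k * (s * b * t) = k * s * b * t := by group
              _ = s * (k * b) * t := by rw [← hks]; group
              _ = s * b * (k * t) := by rw [← hkc b hb]; group
          have t2 : t * (v * b * v⁻¹) = s * (v * b * v⁻¹) * t := by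
            calc t * (v * b * v⁻¹) = v * ((v⁻¹ * t * v) * b) * v⁻¹ := by group
              _ = (v * s) * b * v⁻¹ * t := by rw [t1]; group
              _ = _ := by rw [hvs]; group
          have t3 : t * b⁻¹ = s⁻¹ * b⁻¹ * t := by
            have e1 : b⁻¹ * t * b = s * t := by
              rw [mul_assoc, tb, h.comm_s hb |>.symm]; group
            calc t * b⁻¹ = s⁻¹ * (s * t) * b⁻¹ := by group
              _ = _ := by rw [← e1]; group
          rw [hc]
          calc t * (v * b * v⁻¹ * b⁻¹) = t * (v * b * v⁻¹) * b⁻¹ := by group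
            _ = s * (v * b * v⁻¹) * (t * b⁻¹) := by rw [t2]; group
            _ = s * ((v * b * v⁻¹) * s⁻¹) * b⁻¹ * t := by rw [t3]; group
            _ = v * b * v⁻¹ * b⁻¹ * t := by
              rw [(Commute.inv_right (h.comm_s (h.conj_memS hvs hb))).eq]; group
      have h4 := h.fr.ci.of_commute_centralizer h.z_memS
        (fun e => h.fr.ci.ne_one (by
          calc z = g * (g⁻¹ * z * g) * g⁻¹ := by group
            _ = 1 := by rw [e]; group))
        (fun e => h.ne_z (by
          calc s = g * (g⁻¹ * z * g) * g⁻¹ := by rw [e, h.eq]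
            _ = z := by group))
        hcS (fun p hp hpz => by
          have ht : Rd z Q g (g * p * g⁻¹) := ⟨by
            calc g * p * g⁻¹ * z = g * (p * (g⁻¹ * z * g)) * g⁻¹ := by group
              _ = _ := by rw [hpz]; group, by rwa [conj_conj_inv]⟩
          have := hcomm _ ht
          calc p * (g⁻¹ * c * g) = g⁻¹ * (g * p * g⁻¹ * c) * g := by group
            _ = _ := by rw [this]; group)
      have hback : ∀ {y : G}, g⁻¹ * c * g = y → c = g * y * g⁻¹ := fun e => by rw [← e]; group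
      -- exclude the two `z`-cases by squares
      set b' := v * b * v⁻¹ with hb'
      have hcb : c * b = b' := by rw [hc, inv_mul_cancel_right]
      have hsq : b' * b' = b * b := by
        have e : b' * b' = v * (b * b) * v⁻¹ := by rw [hb']; group
        rcases h.sq_S hb with k | k <;> rw [k] at e ⊢ <;> rw [e]
        · simp
        · rw [hvs, mul_inv_cancel_right]
      rcases h4 with e | e | e | e
      · exact Or.inl (by rw [hback e]; group)
      · exact Or.inr (by rw [hback e, h.eq])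
      all_goals
        exfalso
        have hcz : c = z ∨ c = s * z := by
          first
            | (left; rw [hback e]; group; done)
            | (right; rw [hback e, h.eq]; group; done)
        by_cases hbz : b * z = z * b
        · -- then `b` centralises `z`
          rcases h.zc_eq_zero.1 (hall ⟨hbz, hb⟩ v hv hvs) with k | k <;>
            rw [← hc] at k <;> rcases hcz with r | r <;> rw [r] at k
          · exact h.fr.ci.ne_one k
          · exact h.ne_z (by rw [eq_inv_of_mul_eq_one_left k, h.fr.ci.inv_eq])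
          · exact h.ne_z k.symm
          · exact h.fr.ci.ne_one (mul_eq_left.1 k)
        · have hbz' : b * z = s * z * b := by
            rcases h.comm_S hb h.z_memS with k | k
            · exact absurd (mul_inv_eq_iff_eq_mul.1 (mul_inv_eq_one.1 k)) hbz
            · exact mul_inv_eq_iff_eq_mul.1 (mul_inv_eq_iff_eq_mul.1 k)
          rw [← hcb] at hsq
          rcases hcz with r | r <;> rw [r] at hsq
          · refine h.s_ne_one ?_
            have : z * (b * z) * b = b * b := by rw [← hsq]; group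
            rw [hbz', ← mul_assoc, ← mul_assoc, ← h.s_comm_z, mul_assoc s z z, h.fr.ci.sq, mul_one,
              mul_assoc] at this
            exact mul_eq_right.1 this
          · refine h.s_ne_one ?_
            have hbs := h.comm_s hb
            have : s * z * (b * s * z) * b = b * b := by rw [← hsq]; group
            rw [hbs, mul_assoc s b z, hbz', ← mul_assoc s (s * z) b, ← mul_assoc s s z, h.sq_s,
              one_mul, ← mul_assoc, mul_assoc s z z, h.fr.ci.sq, mul_one, mul_assoc] at this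
            exact mul_eq_right.1 this
    have := h.inter_img hv hm
    rw [hvw] at this
    rcases this with e | e
    · exact e
    · exfalso
      have := hu.2.1.2
      rw [e, h.md.hp.bsf] at this
      exact one_ne_zero this
  intro v hv hvs
  obtain ⟨a, b, ha, hb, qa, qb, hab⟩ := h.md.span w hu.2.1
  have key : ∀ {a : ι → ZMod 2}, perp2 B s0 f0 a → q a = 0 → ∃ ua, h.HasW ua a ∧
      zc s v ua = B (φ v) a := by
    intro a ha qa
    obtain ⟨ua, hua⟩ := h.exists_lift ha
    refine ⟨ua, hua, ?_⟩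
    by_cases h0 : a = 0
    · subst h0; rw [h.zc_X_right (h.hasW_zero hua) hv hvs, map_zero]
    obtain ⟨y, hy, hyv⟩ := h.exists_vec hua.1
    rw [hyv v hv hvs, nontriv hua h0 qa hy hyv, h.md.hp.qf.symm]
  obtain ⟨ua, hua, ea⟩ := key ha qa
  obtain ⟨ub, hub, eb⟩ := key hb qb
  subst hab
  obtain ⟨k, hk, rfl⟩ := h.hasW_congr (h.hasW_mul hua hub) hu
  rw [h.zc_right hv hvs (h.rd_mul hua.1 hub.1) ?_, h.zc_X_right hk hv hvs, add_zero,
    h.zc_right hv hvs hua.1 hub.1, ea, eb, map_add]
  refine ⟨?_, h.X_memS hk⟩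
  rcases hk with rfl | rfl | rfl | rfl
  · simp
  · rfl
  · exact h.s_comm_z
  · exact h.fr.ci.comm _ (mul_mem h.mem h.fr.ci.mem)

/-- Elements orthogonal to `w` commute. -/
theorem commute_of_perp [Finite G] {v u : G} {w : ι → ZMod 2} (hv : v ∈ Q) (hvs : v * s = s * v)
    (hu : h.HasW u w) (hB : B (φ v) w = 0) : v * u = u * v := by
  have h1 := h.zc_eq_zero.1 ((h.vec_eq hu v hv hvs).trans hB)
  have h2 := h.comm_img hv hvs hu
  rw [hB, zero_smul] at h2
  rcases h1 with e | e
  · exact mul_inv_eq_iff_eq_mul.1 (mul_inv_eq_one.1 e)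
  · exfalso
    rw [e, h.img] at h2
    have := h.md.hp.bsf
    simp [h2] at this

/-- Otherwise conjugation multiplies by `z s`. -/
theorem conj_of_not_perp [Finite G] {v u : G} {w : ι → ZMod 2} (hv : v ∈ Q) (hvs : v * s = s * v)
    (hu : h.HasW u w) (hB : B (φ v) w = 1) : v * u * v⁻¹ = s * z * u := by
  have h1 := h.vec_eq hu v hv hvs
  rw [hB] at h1
  rcases h.cz_cases hv hvs hu.1 with e | ⟨-, e | e⟩
  · rw [h.zc_eq_zero.2 e] at h1
    exact absurd h1 zero_ne_one
  · exfalso
    have h2 := h.comm_img hv hvs hu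
    rw [hB, one_smul, e, h.fr.map_z] at h2
    have := h.md.hp.bsf
    simp [← h2] at this
  · exact mul_inv_eq_iff_eq_mul.1 e

end At

end Cfsg.Agent.ExtraTwo
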