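import Cfsg.Agent.ExtraTwo.Siegel

/-!
Involutions in the groups of the conjugates of `z` lying in `Q`, and centralising conjugates of `z`.
-/

set_option autoImplicit false

namespace Cfsg.Agent.ExtraTwo

open Cfsg Cfsg.Agent.LargeExtra Cfsg.Agent.TTClass.OrthF2

section space

variable {V : Type*} [AddCommGroup V] [Module (ZMod 2) V] {q : V → ZMod 2}
  {B : V →ₗ[ZMod 2] V →ₗ[ZMod 2] ZMod 2}

theorem pairMap_swap (h : IsQF q B) {u v : V} (huv : B u v = 1) (x : V) :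
    pairMap B v u (pairMap B u v x) = x := by
  rcases z2 (B x u) with k | k <;> rcases z2 (B x v) with l | l <;>
    simp [pairMap, k, l, h.self, h.symm v u, huv, map_add, add_assoc, add_comm, add_left_comm,
      add_self', add_left_self, CharTwo.add_self_eq_zero]

theorem orb_reverse (h : IsQF q B) {P : V → Prop} {a b : V} (ho : Orb q B P a b) :
    Orb q B P b a := by
  induction ho with
  | refl => exact Relation.ReflTransGen.refl
  | tail _ hst ih =>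
    obtain ⟨u, v, hu, hv, qu, qv, huv, rfl⟩ := hst
    exact Relation.ReflTransGen.head
      ⟨v, u, hv, hu, qv, qu, (h.symm v u).trans huv, (pairMap_swap h huv _).symm⟩ ih

end space

variable {G : Type*} [Group G]

/-- Lying in the group of a conjugate of `z` in `Q`. -/
def NearQ (z : G) (Q : Subgroup G) (x : G) : Prop :=
  ∃ k, k * z * k⁻¹ ∈ Q ∧ k * z * k⁻¹ ≠ z ∧ x ≠ k * z * k⁻¹ ∧ k⁻¹ * x * k ∈ Q

variable {ι : Type} [Fintype ι] {z : G} {Q : Subgroup G} {q : (ι → ZMod 2) → ZMod 2}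
  {B : (ι → ZMod 2) →ₗ[ZMod 2] (ι → ZMod 2) →ₗ[ZMod 2] ZMod 2} {φ : G → ι → ZMod 2}

namespace Frame

variable (h : Frame z Q q B φ)
include h

theorem swap_conj {a : G} (ha : a ∈ Q) (h1 : a ≠ 1) (hz : a ≠ z) :
    ∃ r ∈ Q, r * a * r⁻¹ = a * z ∧ r * (a * z) * r⁻¹ = a := by
  obtain ⟨r, hr, hra⟩ := h.ci.exists_swap ha h1 hz
  refine ⟨r, hr, hra, ?_⟩
  have hrz := h.ci.comm r hr
  calc r * (a * z) * r⁻¹ = (r * a * r⁻¹) * (r * z * r⁻¹) := by group
    _ = a := by rw [hra, hrz, mul_inv_cancel_right, mul_assoc, h.ci.sq, mul_one]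

theorem map_ne {a : G} (ha : a ∈ Q) (h1 : a ≠ 1) (hz : a ≠ z) : φ a ≠ 0 :=
  fun e => (h.map_ker a ha e).elim h1 hz

theorem act_conjQ {c a : G} (hc : c * z = z * c) (ha : a ∈ Q) :
    φ (c⁻¹ * a * c) = h.act c⁻¹ (φ a) := by
  have := h.act_map (c := c⁻¹) (Commute.inv_left hc).eq ha
  rw [inv_inv] at this
  exact this.symm

theorem nearQ_conj {x c : G} (hc : c * z = z * c) (hx : NearQ z Q x) :
    NearQ z Q (c * x * c⁻¹) := by
  obtain ⟨k, hk, hkz, hxk, hkx⟩ := hx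
  have e : c * k * z * (c * k)⁻¹ = c * (k * z * k⁻¹) * c⁻¹ := by group
  refine ⟨c * k, e ▸ h.conj_memQ hc hk, fun r => hkz ?_, fun r => hxk ?_, ?_⟩
  · calc k * z * k⁻¹ = c⁻¹ * (c * k * z * (c * k)⁻¹) * c := by group
      _ = c⁻¹ * (z * c) := by rw [r]; group
      _ = z := by rw [← hc]; group
  · calc x = c⁻¹ * (c * x * c⁻¹) * c := by group
      _ = _ := by rw [r]; group
  · convert hkx using 1
    group

variable [Finite G] {s0 f0 : ι → ZMod 2}

/-- Some conjugate of `z` has image `s0`. -/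
theorem exists_at (hmd : Model q B s0 f0) (hnwc : ∃ g : G, g * z * g⁻¹ ∈ Q ∧ g * z * g⁻¹ ≠ z) :
    ∃ g s, At z Q q B φ s0 f0 g s := by
  obtain ⟨k, hk, hkz⟩ := hnwc
  have h1 : k * z * k⁻¹ ≠ 1 := fun e => h.ci.ne_one (conj_eq_one_iff.1 e)
  have h2 : k * z * k⁻¹ * (k * z * k⁻¹) = 1 := by
    rw [show k * z * k⁻¹ * (k * z * k⁻¹) = k * (z * z) * k⁻¹ by group, h.ci.sq]; group
  obtain ⟨c, hc, hcs, -⟩ := h.lift_orb
    (orb_reverse h.qf (hmd.trans (φ (k * z * k⁻¹)) ((h.map_sq _ hk).1 h2) (h.map_ne hk h1 hkz)))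
  refine ⟨c * k, c * (k * z * k⁻¹) * c⁻¹,
    { fr := h, md := hmd, eq := by group, mem := h.conj_memQ hc hk, img := ?_ }⟩
  rw [← h.act_map hc hk, hcs]

end Frame

namespace At

variable [Finite G] {s0 f0 : ι → ZMod 2} {g s : G} (hA : At z Q q B φ s0 f0 g s)
include hA

/-- An element of `C(z)` moving `s` to a given involution of `Q`. -/
theorem exists_to {a : G} (ha : a ∈ Q) (h2 : a * a = 1) (h1 : a ≠ 1) (hz : a ≠ z) :
    ∃ c, c * z = z * c ∧ c * s * c⁻¹ = a := by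
  obtain ⟨c, hc, hcs, -⟩ := hA.fr.lift_orb
    (hA.md.trans _ ((hA.fr.map_sq a ha).1 h2) (hA.fr.map_ne ha h1 hz))
  have e : φ (c * s * c⁻¹) = φ a := by rw [← hA.fr.act_map hc hA.mem, hA.img, hcs]
  rcases hA.fr.eq_or_of_map_eq (hA.fr.conj_memQ hc hA.mem) ha e with e' | e'
  · exact ⟨c, hc, e'⟩
  · obtain ⟨r, hr, -, hra⟩ := hA.fr.swap_conj ha h1 hz
    refine ⟨r * c, by rw [mul_assoc, hc, ← mul_assoc, hA.fr.ci.comm r hr, mul_assoc], ?_⟩
    calc r * c * s * (r * c)⁻¹ = r * (c * s * c⁻¹) * r⁻¹ := by group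
      _ = a := by rw [e', hra]

/-- The involutions of `Q` other than `z` are conjugate to `z`. -/
theorem conj_of_mem {a : G} (ha : a ∈ Q) (h2 : a * a = 1) (h1 : a ≠ 1) (hz : a ≠ z) :
    ∃ k, k * z * k⁻¹ = a := by
  obtain ⟨c, -, hc⟩ := hA.exists_to ha h2 h1 hz
  exact ⟨c * g, by rw [← hc, hA.eq]; group⟩

/-- Near involutions are conjugate to `z`. -/
theorem isConj_nearQ {x : G} (hx2 : x * x = 1) (hx1 : x ≠ 1) (hn : NearQ z Q x) : IsConj z x := by
  obtain ⟨k, -, -, hxk, hkx⟩ := hn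
  obtain ⟨j, hj⟩ := hA.conj_of_mem hkx
    (by rw [show k⁻¹ * x * k * (k⁻¹ * x * k) = k⁻¹ * (x * x) * k by group, hx2]; group)
    (fun e => hx1 (by
      calc x = k * (k⁻¹ * x * k) * k⁻¹ := by group
        _ = 1 := by rw [e]; group))
    (fun e => hxk (by
      calc x = k * (k⁻¹ * x * k) * k⁻¹ := by group
        _ = _ := by rw [e]))
  exact isConj_iff.2 ⟨k * j, by
    calc k * j * z * (k * j)⁻¹ = k * (j * z * j⁻¹) * k⁻¹ := by group
      _ = x := by rw [hj]; group⟩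

/-- A near element has totally singular displacement. -/
theorem alt_of_nearQ {x : G} (hx : x * z = z * x) (hx2 : x * x = 1) (hn : NearQ z Q x)
    (a : ι → ZMod 2) : q (hA.fr.act x a + a) = 0 := by
  have h := hA.fr
  obtain ⟨k, hk, hkz, -, hkx⟩ := hn
  have hk1 : k * z * k⁻¹ ≠ 1 := fun e => h.ci.ne_one (conj_eq_one_iff.1 e)
  have hk2 : k * z * k⁻¹ * (k * z * k⁻¹) = 1 := by
    rw [show k * z * k⁻¹ * (k * z * k⁻¹) = k * (z * z) * k⁻¹ by group, h.ci.sq]; group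
  obtain ⟨c, hc, hcs⟩ := hA.exists_to hk hk2 hk1 hkz
  have hci : c⁻¹ * z = z * c⁻¹ := (Commute.inv_left hc).eq
  set x' := c⁻¹ * x * c with hx'
  have hx'z : x' * z = z * x' := by
    rw [hx', mul_assoc _ c z, hc, ← mul_assoc, mul_assoc c⁻¹ x z, hx, ← mul_assoc c⁻¹ z x, hci]
    group
  have hS : g⁻¹ * x' * g ∈ Q := by
    refine h.conjQ_congr (a := c⁻¹ * k) ?_ ?_
    · rw [← hA.eq]
      calc c⁻¹ * k * z * (c⁻¹ * k)⁻¹ = c⁻¹ * (k * z * k⁻¹) * c := by group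
        _ = s := by rw [← hcs]; group
    · rw [hx']; convert hkx using 1; group
  obtain ⟨w, hw, hwact⟩ := hA.exists_omega ⟨hx'z, hS⟩
  have hq : q w = 0 := (hA.sq_iff (u := x') ⟨⟨hx'z, hS⟩, hw, hwact⟩).1 (by
    rw [hx', show c⁻¹ * x * c * (c⁻¹ * x * c) = c⁻¹ * (x * x) * c by group, hx2]; group)
  have h1 : ∀ b, q (hA.fr.act x' b + b) = 0 := fun b => by
    have hqf := hA.md.hp.qf
    rw [hwact, rho, hq, mul_zero, add_zero, add_comm _ b, add_assoc, add_left_self, hqf.add]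
    rcases z2 (B b s0) with r | r <;> rcases z2 (B b w) with r' | r' <;>
      simp [r, r', hqf.zero, hq, hw.1, hA.md.hp.qs]
  have e : hA.fr.act x a + a = hA.fr.act c (hA.fr.act x' (hA.fr.act c⁻¹ a) + hA.fr.act c⁻¹ a) := by
    rw [hA.fr.act_add hc, ← hA.fr.act_mul hc hx'z, ← hA.fr.act_mul hc hci, mul_inv_cancel,
      hA.fr.act_one, hx', show c * (c⁻¹ * x * c) = x * c by group, hA.fr.act_mul hx hc,
      ← hA.fr.act_mul hc hci, mul_inv_cancel, hA.fr.act_one]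
  rw [e, hA.fr.act_q hc, h1]

end At

end Cfsg.Agent.ExtraTwo
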