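import Mathlib.Logic.Relation
import Cfsg.Agent.TTClass.OrthF2

/-!
Quadratic spaces over the field with two elements: a hyperbolic pair, the maps fixing a singular
vector, and orbits under products of two transvections.
-/

set_option autoImplicit false

namespace Cfsg.Agent.ExtraTwo

open Cfsg.Agent.TTClass.OrthF2

variable {V : Type*} [AddCommGroup V] [Module (ZMod 2) V]

/-- The action of a product of two transvections along `u`, `v` with `B u v = 1`. -/
def pairMap (B : V →ₗ[ZMod 2] V →ₗ[ZMod 2] ZMod 2) (u v x : V) : V :=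
  x + B x v • v + (B x u + B x v) • u

/-- Moves by admissible pairs taken from `P`. -/
def Step (q : V → ZMod 2) (B : V →ₗ[ZMod 2] V →ₗ[ZMod 2] ZMod 2) (P : V → Prop) (a b : V) : Prop :=
  ∃ u v, P u ∧ P v ∧ q u = 1 ∧ q v = 1 ∧ B u v = 1 ∧ b = pairMap B u v a

/-- The generated relation. -/
def Orb (q : V → ZMod 2) (B : V →ₗ[ZMod 2] V →ₗ[ZMod 2] ZMod 2) (P : V → Prop) : V → V → Prop :=
  Relation.ReflTransGen (Step q B P)

/-- A hyperbolic pair. -/
structure Hyp2 (q : V → ZMod 2) (B : V →ₗ[ZMod 2] V →ₗ[ZMod 2] ZMod 2) (s f : V) : Prop where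
  qf : IsQF q B
  qs : q s = 0
  qff : q f = 0
  bsf : B s f = 1

/-- The orthogonal complement of a pair. -/
def perp2 (B : V →ₗ[ZMod 2] V →ₗ[ZMod 2] ZMod 2) (s f x : V) : Prop := B x s = 0 ∧ B x f = 0

/-- The unipotent map attached to `w` at `s`. -/
def rho (q : V → ZMod 2) (B : V →ₗ[ZMod 2] V →ₗ[ZMod 2] ZMod 2) (s w x : V) : V :=
  x + B x s • w + (B x w + B x s * q w) • s

theorem add_left_self (a b : V) : a + (a + b) = b := by rw [← add_assoc, add_self', zero_add]

theorem eq_of_add_eq_zero' {a b : V} (h : a + b = 0) : a = b := by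
  calc a = a + (b + b) := by rw [add_self', add_zero]
    _ = b := by rw [← add_assoc, h, zero_add]

namespace Hyp2

variable {q : V → ZMod 2} {B : V →ₗ[ZMod 2] V →ₗ[ZMod 2] ZMod 2} {s f : V} (h : Hyp2 q B s f)
include h

theorem bfs : B f s = 1 := by rw [h.qf.symm, h.bsf]

theorem perp2_add {a b : V} (ha : perp2 B s f a) (hb : perp2 B s f b) : perp2 B s f (a + b) := by
  constructor <;> simp [ha.1, ha.2, hb.1, hb.2]

theorem perp2_zero : perp2 B s f 0 := by constructor <;> simp

/-- The component orthogonal to the pair. -/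
theorem decomp (x : V) : ∃ d, perp2 B s f d ∧ x = B x f • s + B x s • f + d := by
  refine ⟨x + B x f • s + B x s • f, ⟨?_, ?_⟩, ?_⟩
  · simp [h.qf.self, h.bfs]; exact CharTwo.add_self_eq_zero _
  · simp [h.qf.self, h.bsf]; exact CharTwo.add_self_eq_zero _
  · calc x = x + (B x f • s + B x f • s) + (B x s • f + B x s • f) := by
          rw [add_self', add_self', add_zero, add_zero]
      _ = _ := by abel

theorem q_smul_s_add (c : ZMod 2) {d : V} (hd : B d s = 0) : q (c • s + d) = q d := by
  rcases z2 c with rfl | rfl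
  · simp
  · rw [one_smul, h.qf.add, h.qs, h.qf.symm, hd]; simp

theorem rho_s (w : V) (hw : perp2 B s f w) : rho q B s w s = s := by
  simp [rho, h.qf.self, h.qf.symm s w, hw.1]

theorem rho_of_perp (w : V) {x : V} (hx : B x s = 0) : rho q B s w x = x + B x w • s := by
  simp [rho, hx]

theorem rho_f {w : V} (hw : perp2 B s f w) : rho q B s w f = f + w + q w • s := by
  simp [rho, h.bfs, h.qf.symm f w, hw.2]

theorem rho_zero (x : V) : rho q B s 0 x = x := by simp [rho, h.qf.zero]

theorem rho_inj {w w' : V} (hw : perp2 B s f w) (hw' : perp2 B s f w')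
    (he : rho q B s w f = rho q B s w' f) : w = w' := by
  rw [h.rho_f hw, h.rho_f hw'] at he
  have h1 : B (f + w + q w • s) f = B (f + w' + q w' • s) f := by rw [he]
  simp [h.qf.self, hw.2, hw'.2, h.bsf] at h1
  rw [h1] at he
  exact add_left_cancel (add_right_cancel he)

theorem rho_mul {a b : V} (ha : perp2 B s f a) (hb : perp2 B s f b) (x : V) :
    rho q B s a (rho q B s b x) = rho q B s (a + b) x := by
  simp only [rho, map_add, map_smul, LinearMap.add_apply, LinearMap.smul_apply, smul_eq_mul,
    h.qf.self, hb.1, h.qf.symm s a, ha.1, h.qf.add, h.qf.symm b a, mul_zero, add_zero]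
  module

/-- Isometries fixing `s` and inducing the identity on its orthogonal modulo `s`. -/
theorem exists_rho {M : V → V} (hadd : ∀ x y, M (x + y) = M x + M y) (hq : ∀ x, q (M x) = q x)
    (hs : M s = s) (htriv : ∀ x, B x s = 0 → M x = x ∨ M x = x + s) :
    ∃ w, perp2 B s f w ∧ ∀ x, M x = rho q B s w x := by
  have hB : ∀ x y, B (M x) (M y) = B x y := fun x y => by
    have e := h.qf.add x y
    rw [← hq (x + y), hadd, h.qf.add, hq, hq] at e
    exact add_left_cancel e
  have hsm : ∀ (c : ZMod 2) x, M (c • x) = c • M x := fun c x => by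
    rcases z2 c with rfl | rfl
    · rw [zero_smul, zero_smul]
      have e := hadd 0 0
      rw [add_zero] at e
      exact left_eq_add.mp e
    · rw [one_smul, one_smul]
  obtain ⟨w, hw, hdec⟩ := h.decomp (M f)
  have hfs : B (M f) s = 1 := by rw [← hs, hB, h.bfs]
  rw [hfs, one_smul] at hdec
  have hk : B (M f) f = q w := by
    have e := hq f
    rw [h.qff, hdec, add_assoc, h.qf.add, map_add] at e
    rcases z2 (B (M f) f) with c | c <;> rw [c] at e ⊢ <;>
      simp [h.qs, h.qff, h.qf.zero, h.qf.add f w, h.bsf, h.qf.symm s w, hw.1, h.qf.symm f w, hw.2] at e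
    · exact e.symm
    · rcases z2 (q w) with d | d <;> rw [d] at e ⊢
      exact absurd e (by decide)
  refine ⟨w, hw, fun x => ?_⟩
  obtain ⟨d, hd, hx⟩ := h.decomp x
  generalize B x f = a at hx
  generalize B x s = c at hx
  subst hx
  have hMd : M d = d + B d w • s := by
    rcases htriv d hd.1 with e | e
    · rw [e]
      have := hB d f
      rw [e, hd.2, hdec] at this
      simp [hd.1, hd.2] at this
      rw [this, zero_smul, add_zero]
    · rw [e]
      have := hB d f
      rw [e, hd.2, hdec] at this
      simp [hd.1, hd.2, h.qf.self, h.bsf, h.qf.symm s w, hw.1] at this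
      rcases z2 (B d w) with k | k
      · rw [k] at this; exact absurd this (by decide)
      · rw [k, one_smul]
  rw [hadd, hadd, hsm, hsm, hs, hdec, hk, hMd]
  simp only [rho, map_add, map_smul, LinearMap.add_apply, LinearMap.smul_apply, smul_eq_mul,
    h.qf.self, h.bfs, hd.1, h.qf.symm s w, hw.1, h.qf.symm f w, hw.2, mul_zero, add_zero, mul_one,
    zero_add, one_mul]
  module

/-- Equivariance. -/
theorem rho_conj {M : V → V} (hadd : ∀ x y, M (x + y) = M x + M y) (hq : ∀ x, q (M x) = q x)
    (hs : M s = s) (w : V) (x : V) : M (rho q B s w x) = rho q B s (M w) (M x) := by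
  have hB : ∀ x y, B (M x) (M y) = B x y := fun x y => by
    have e := h.qf.add x y
    rw [← hq (x + y), hadd, h.qf.add, hq, hq] at e
    exact add_left_cancel e
  have hsm : ∀ (c : ZMod 2) x, M (c • x) = c • M x := fun c x => by
    rcases z2 c with rfl | rfl
    · rw [zero_smul, zero_smul]
      have e := hadd 0 0
      rw [add_zero] at e
      exact left_eq_add.mp e
    · rw [one_smul, one_smul]
  have h1 : B (M x) s = B x s := by conv_lhs => rw [← hs, hB]
  simp only [rho, hadd, hsm, hs, hB, hq, h1]

/-- `rho` does not see the `s`-component of `w`. -/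
theorem rho_congr {w : V} (hw : B w s = 0) (c : ZMod 2) (x : V) :
    rho q B s (w + c • s) x = rho q B s w x := by
  rcases z2 c with rfl | rfl
  · simp
  · simp only [one_smul, rho, map_add, h.qf.add, h.qs, hw, smul_add, add_zero]
    rw [add_smul (B x w + B x s) _ _ |>.trans (by rw [add_smul]), add_smul]
    have := add_self' (B x s • s)
    calc x + (B x s • w + B x s • s) + (B x w • s + B x s • s + (B x s * q w) • s)
        = x + B x s • w + (B x w • s + (B x s * q w) • s) + (B x s • s + B x s • s) := by abel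
      _ = _ := by rw [this, add_zero]

end Hyp2

end Cfsg.Agent.ExtraTwo
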